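/- CKS (S2193): doubly transitive actions of groups of Lie type (blueprints/CKS.md). -/
import Cfsg.Agent.Base
import Cfsg.Prelude.Def_LieTypeChar

set_option autoImplicit false

namespace H32.CK
open Subgroup Cfsg
open scoped MatrixGroups

/-- The list of the theorem, `n` the degree. -/
def Out (G : Type*) [Group G] (n : ℕ) : Prop :=
  (∃ (F : Type) (_ : Field F) (_ : Fintype F) (l : ℕ), 3 ≤ l ∧ Nonempty (G ≃* PSL(l, F)) ∧
    n * (Fintype.card F - 1) = Fintype.card F ^ l - 1) ∨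
  (∃ (F : Type) (_ : Field F) (_ : Fintype F), 4 ≤ Fintype.card F ∧ Nonempty (G ≃* PSL(2, F)) ∧
    n = Fintype.card F + 1) ∨
  (∃ (F : Type) (_ : Field F) (_ : Fintype F) (q : ℕ), 3 ≤ q ∧ Fintype.card F = q ^ 2 ∧
    Nonempty (G ≃* PSU 3 F q) ∧ n = q ^ 3 + 1) ∨
  (∃ (F : Type) (_ : Field F) (_ : Fintype F) (m : ℕ), 1 ≤ m ∧ Fintype.card F = 2 ^ (2 * m + 1) ∧
    Nonempty (G ≃* Lie.Sz F (2 ^ (m + 1))) ∧ n = Fintype.card F ^ 2 + 1) ∨
  (∃ (K : Type) (_ : Field K) (_ : Fintype K) (m : ℕ), 1 ≤ m ∧ Fintype.card K = 3 ^ (2 * m + 1) ∧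
    Nonempty (G ≃* Lie.twistedG2 K (3 ^ m)) ∧ n = Fintype.card K ^ 3 + 1) ∨
  (∃ (F : Type) (_ : Field F) (_ : Fintype F), Fintype.card F = 9 ∧ Nonempty (G ≃* PSL(2, F)) ∧
    n = 6) ∨
  (∃ (F : Type) (_ : Field F) (_ : Fintype F), Fintype.card F = 11 ∧ Nonempty (G ≃* PSL(2, F)) ∧
    n = 11) ∨
  (∃ (F : Type) (_ : Field F) (_ : Fintype F), Fintype.card F = 2 ∧ Nonempty (G ≃* PSL(4, F)) ∧
    n = 8) ∨
  (∃ (F : Type) (_ : Field F) (_ : Fintype F) (m : ℕ), 3 ≤ m ∧ Fintype.card F = 2 ∧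
    Nonempty (G ≃* PSp m F) ∧ (n = 2 ^ (m - 1) * (2 ^ m + 1) ∨ n = 2 ^ (m - 1) * (2 ^ m - 1)))

/-- A faithful doubly transitive action of a non-abelian simple group. -/
structure Act (G Ω : Type) [Group G] [MulAction G Ω] : Prop where
  faith : FaithfulSMul G Ω
  two : MulAction.IsMultiplyPretransitive G Ω 2
  simple : IsSimpleGroup G
  nc : ¬ IsMulCommutative G

/-- Chapter B: `p` divides the degree and the Sylow `p`-normalisers are transitive. -/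
structure CB (p : ℕ) (G Ω : Type) [Group G] [MulAction G Ω] : Prop extends Act G Ω where
  dvd : p ∣ Nat.card Ω
  bt : ∀ (U : Sylow p G) (a b : Ω), ∃ g ∈ normalizer ((U : Subgroup G) : Set G), g • a = b

/-- The groups of chapter X. -/
def Exc (G : Type) [Group G] : Prop := ∃ (F : Type) (_ : Field F) (_ : Fintype F),
  (Fintype.card F = 2 ∧ ∃ m, 3 ≤ m ∧ Nonempty (G ≃* PSp m F)) ∨
  (Fintype.card F = 2 ∧ Nonempty (G ≃* Lie.chevF4.group F)) ∨
  (Fintype.card F = 3 ∧ Nonempty (G ≃* Lie.chevG2.group F))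

/-- Chapter B holds for all groups isomorphic to `L`. -/
def ChB (p : ℕ) (L : Type) [Group L] : Prop := ∀ (G Ω : Type) [Group G] [Finite G] [MulAction G Ω]
  [Finite Ω], Nonempty (G ≃* L) → CB p G Ω → Out G (Nat.card Ω)

/-- Chapter X holds for all groups isomorphic to `L`. -/
def ChX (p : ℕ) (L : Type) [Group L] : Prop := ∀ (G Ω : Type) [Group G] [Finite G] [MulAction G Ω]
  [Finite Ω], Nonempty (G ≃* L) → Act G Ω → p ∣ Nat.card Ω → Out G (Nat.card Ω)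

/-! ### Chapters P and A -/

def JobP : Prop := ∀ (p : ℕ) [Fact p.Prime] (G Ω : Type) [Group G] [Finite G] [MulAction G Ω]
  [Finite Ω], IsLieTypeChar p G → Act G Ω → ¬ p ∣ Nat.card Ω → Out G (Nat.card Ω)

def JobA : Prop := ∀ (p : ℕ) [Fact p.Prime] (G Ω : Type) [Group G] [Finite G] [MulAction G Ω]
  [Finite Ω], IsLieTypeChar p G → ¬ Exc G → Act G Ω → p ∣ Nat.card Ω → CB p G Ω

/-! ### Chapter B, family by family -/

def JobL2 : Prop := ∀ (p : ℕ) [Fact p.Prime] (F : Type) [Field F] [Fintype F] [CharP F p],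
  4 ≤ Fintype.card F → ChB p PSL(2, F)

def JobL : Prop := ∀ (p : ℕ) [Fact p.Prime] (F : Type) [Field F] [Fintype F] [CharP F p] (m : ℕ),
  3 ≤ m → ChB p PSL(m, F)

def JobSp : Prop := ∀ (p : ℕ) [Fact p.Prime] (F : Type) [Field F] [Fintype F] [CharP F p] (m : ℕ),
  2 ≤ m → 3 ≤ Fintype.card F → ChB p (PSp m F)

def JobU3 : Prop := ∀ (p : ℕ) [Fact p.Prime] (F : Type) [Field F] [Fintype F] [CharP F p] (q : ℕ),
  Fintype.card F = q ^ 2 → q ≠ 2 → ChB p (PSU 3 F q)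

def JobU : Prop := ∀ (p : ℕ) [Fact p.Prime] (F : Type) [Field F] [Fintype F] [CharP F p] (m q : ℕ),
  Fintype.card F = q ^ 2 → 4 ≤ m → ChB p (PSU m F q)

def JobOo : Prop := ∀ (p : ℕ) [Fact p.Prime] (F : Type) [Field F] [Fintype F] [CharP F p] (m : ℕ),
  3 ≤ m → Odd (Fintype.card F) → ChB p (POmega F (quadFormOdd m F))

def JobOp : Prop := ∀ (p : ℕ) [Fact p.Prime] (F : Type) [Field F] [Fintype F] [CharP F p] (m : ℕ),
  4 ≤ m → ChB p (POmega F (quadFormPlus m F))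

def JobOm : Prop := ∀ (p : ℕ) [Fact p.Prime] (F : Type) [Field F] [Fintype F] [CharP F p] (m : ℕ)
  (a b : F), 4 ≤ m → (∀ z₁ z₂ : F, z₁ ^ 2 + a * z₁ * z₂ + b * z₂ ^ 2 = 0 → z₁ = 0 ∧ z₂ = 0) →
  ChB p (POmega F (quadFormMinus (m - 1) F a b))

def JobG2 : Prop := ∀ (p : ℕ) [Fact p.Prime] (F : Type) [Field F] [Fintype F] [CharP F p],
  4 ≤ Fintype.card F → ChB p (Lie.chevG2.group F)

def JobF4 : Prop := ∀ (p : ℕ) [Fact p.Prime] (F : Type) [Field F] [Fintype F] [CharP F p],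
  3 ≤ Fintype.card F → ChB p (Lie.chevF4.group F)

def JobE6 : Prop := ∀ (p : ℕ) [Fact p.Prime] (F : Type) [Field F] [Fintype F] [CharP F p],
  ChB p (Lie.chevE6.group F)

def JobE7 : Prop := ∀ (p : ℕ) [Fact p.Prime] (F : Type) [Field F] [Fintype F] [CharP F p],
  ChB p (Lie.chevE7.group F)

def JobE8 : Prop := ∀ (p : ℕ) [Fact p.Prime] (F : Type) [Field F] [Fintype F] [CharP F p],
  ChB p (Lie.chevE8.group F)

def Job2E6 : Prop := ∀ (p : ℕ) [Fact p.Prime] (K : Type) [Field K] [Fintype K] [CharP K p] (q : ℕ),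
  IsPrimePow q → Fintype.card K = q ^ 2 → ChB p (Lie.twistedE6 K q)

def Job3D4 : Prop := ∀ (p : ℕ) [Fact p.Prime] (K : Type) [Field K] [Fintype K] [CharP K p] (q : ℕ),
  IsPrimePow q → Fintype.card K = q ^ 3 → ChB p (Lie.twistedD4 K q)

def JobSz : Prop := ∀ (F : Type) [Field F] [Fintype F] (m : ℕ), 1 ≤ m →
  Fintype.card F = 2 ^ (2 * m + 1) → ChB 2 (Lie.Sz F (2 ^ (m + 1)))

def Job2F4 : Prop := ∀ (K : Type) [Field K] [Fintype K] (m : ℕ), 1 ≤ m →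
  Fintype.card K = 2 ^ (2 * m + 1) → ChB 2 (Lie.twistedF4 K (2 ^ m))

def JobRee : Prop := ∀ (K : Type) [Field K] [Fintype K] (m : ℕ), 1 ≤ m →
  Fintype.card K = 3 ^ (2 * m + 1) → ChB 3 (Lie.twistedG2 K (3 ^ m))

/-! ### Chapter X -/

def JobXSp : Prop := ∀ (F : Type) [Field F] [Fintype F] (m : ℕ), Fintype.card F = 2 → 3 ≤ m →
  ChX 2 (PSp m F)

def JobXF4 : Prop := ∀ (F : Type) [Field F] [Fintype F], Fintype.card F = 2 →
  ChX 2 (Lie.chevF4.group F)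

def JobXG2 : Prop := ∀ (F : Type) [Field F] [Fintype F], Fintype.card F = 3 →
  ChX 3 (Lie.chevG2.group F)

end H32.CK
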