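/- CKS (S2193): the generic lemmas (blueprints/CKS.md). -/
import Cfsg.Agent.H32.CKSpec
import Cfsg.Agent.H98.Basic

set_option autoImplicit false
set_option linter.unusedSectionVars false

namespace H32.CK
open Subgroup Cfsg MulAction
open H98 (cj mem_cj cj_cj card_cj cj_inf cj_eq_self)
open scoped commutatorElement

variable {p : ℕ} {G Ω : Type} [Group G] [Finite G] [MulAction G Ω] [Finite Ω]

theorem Act.ex (h : Act G Ω) {a b c d : Ω} (h1 : a ≠ b) (h2 : c ≠ d) :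
    ∃ g : G, g • a = c ∧ g • b = d := is_two_pretransitive_iff.1 h.two h1 h2

theorem Act.pre (h : Act G Ω) : IsPretransitive G Ω :=
  haveI := h.two
  isPretransitive_of_is_two_pretransitive

theorem Act.eq_one (h : Act G Ω) {g : G} (hg : ∀ a : Ω, g • a = a) : g = 1 :=
  haveI := h.faith
  eq_of_smul_eq_smul (α := Ω) fun a => by rw [hg, one_smul]

theorem Act.nontrivial (h : Act G Ω) : Nontrivial Ω := by
  by_contra c
  rw [not_nontrivial_iff_subsingleton] at c
  exact h.nc ⟨⟨fun a b => by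
    rw [h.eq_one (g := a) fun _ => Subsingleton.elim _ _, one_mul, mul_one]⟩⟩

theorem Act.two_le (h : Act G Ω) : 2 ≤ Nat.card Ω :=
  haveI := h.nontrivial
  Finite.one_lt_card

theorem Act.index (h : Act G Ω) (a : Ω) : (stabilizer G a).index = Nat.card Ω :=
  haveI := h.pre
  index_stabilizer_of_transitive G a

theorem Act.ne_top (h : Act G Ω) (a : Ω) : stabilizer G a ≠ ⊤ := fun e => by
  have := h.index a
  have := h.two_le
  rw [e, index_top] at *
  omega

theorem Act.coatom (h : Act G Ω) (a : Ω) : IsCoatom (stabilizer G a) := by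
  haveI := h.pre
  haveI := h.nontrivial
  rw [isCoatom_stabilizer_iff_preprimitive]
  exact isPreprimitive_of_is_two_pretransitive h.two

/-- A set stable under conjugation by the stabiliser of `a`. -/
theorem Act.cls (h : Act G Ω) (a : Ω) (C : Set G)
    (hC : ∀ g ∈ stabilizer G a, ∀ c ∈ C, g * c * g⁻¹ ∈ C) :
    Nat.card Ω - 1 ∣ Nat.card {c : G // c ∈ C ∧ c • a ≠ a} := by
  classical
  haveI := h.nontrivial
  haveI := Fintype.ofFinite Ω
  obtain ⟨b, hb⟩ := exists_ne a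
  have e : {c : G // c ∈ C ∧ c • a ≠ a} ≃ Σ d : {d : Ω // d ≠ a}, {c : G // c ∈ C ∧ c • a = d} :=
    { toFun := fun c => ⟨⟨c.1 • a, c.2.2⟩, c.1, c.2.1, rfl⟩
      invFun := fun x => ⟨x.2.1, x.2.2.1, fun e => x.1.2 (x.2.2.2.symm.trans e)⟩
      left_inv := fun _ => rfl
      right_inv := by
        rintro ⟨⟨d, hd⟩, c, h1, h2⟩
        dsimp only at h2
        subst h2
        rfl }
  have k : ∀ d : {d : Ω // d ≠ a}, Nat.card {c : G // c ∈ C ∧ c • a = d} =
      Nat.card {c : G // c ∈ C ∧ c • a = b} := fun d => by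
    obtain ⟨g, g1, g2⟩ := h.ex d.2.symm hb.symm
    have g3 : g⁻¹ • a = a := by rw [inv_smul_eq_iff, g1]
    refine Nat.card_congr
      { toFun := fun c => ⟨g * c * g⁻¹, hC g g1 _ c.2.1, by rw [mul_smul, mul_smul, g3, c.2.2, g2]⟩
        invFun := fun c => ⟨g⁻¹ * c * g⁻¹⁻¹, hC _ g3 _ c.2.1, by
          rw [mul_smul, mul_smul, inv_inv, g1, c.2.2, ← g2, inv_smul_smul]⟩
        left_inv := fun c => Subtype.ext (by simp [mul_assoc])
        right_inv := fun c => Subtype.ext (by simp [mul_assoc]) }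
  rw [Nat.card_congr e, Nat.card_sigma, Finset.sum_congr rfl fun d _ => k d, Finset.sum_const,
    Finset.card_univ, Fintype.card_subtype_compl, Fintype.card_subtype_eq, Nat.card_eq_fintype_card]
  exact Dvd.intro _ rfl

theorem Act.dvd2 (h : Act G Ω) (a : Ω) : Nat.card Ω - 1 ∣ Nat.card (stabilizer G a) := by
  haveI := h.nontrivial
  obtain ⟨b, hb⟩ := exists_ne a
  have : orbit (stabilizer G a) b = {a}ᶜ := by
    ext d
    constructor
    · rintro ⟨g, rfl⟩ e
      exact hb (smul_left_cancel (g : G) (e.trans g.2.symm))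
    · intro hd
      obtain ⟨g, g1, g2⟩ := h.ex hb.symm (Ne.symm hd)
      exact ⟨⟨g, g1⟩, g2⟩
  have e := index_stabilizer (stabilizer G a) b
  rw [this, Set.ncard_compl, Set.ncard_singleton] at e
  exact e ▸ index_dvd_card _

theorem Act.dvd1 (h : Act G Ω) : Nat.card Ω * (Nat.card Ω - 1) ∣ Nat.card G := by
  haveI := h.nontrivial
  obtain ⟨a⟩ : Nonempty Ω := inferInstance
  rw [← (stabilizer G a).index_mul_card, h.index]
  exact mul_dvd_mul_left _ (h.dvd2 a)

/-- A class without fixed points has length divisible by `n - 1`. -/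
theorem Act.chi (h : Act G Ω) {z : G} (hz : ∀ a : Ω, z • a ≠ a) :
    Nat.card Ω - 1 ∣ (centralizer ({z} : Set G)).index := by
  haveI := h.nontrivial
  obtain ⟨a⟩ : Nonempty Ω := inferInstance
  have := h.cls a (orbit (ConjAct G) z) (by
    rintro g - _ ⟨k, rfl⟩
    exact ⟨ConjAct.toConjAct g * k, mul_smul _ _ _⟩)
  rw [Nat.card_congr (Equiv.subtypeEquivRight (q := (· ∈ orbit (ConjAct G) z)) fun c =>
    and_iff_left_of_imp (by
      rintro ⟨k, rfl⟩ e
      exact hz ((ConjAct.ofConjAct k)⁻¹ • a) (by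
        rw [eq_inv_smul_iff, ← mul_smul, ← mul_smul]; exact e)))] at this
  rw [centralizer_eq_comap_stabilizer]
  exact this.trans (dvd_of_eq ((index_comap_of_surjective (stabilizer (ConjAct G) z)
    (f := ConjAct.toConjAct.toMonoidHom) ConjAct.toConjAct.surjective).trans
      (index_stabilizer _ z)).symm)

theorem card_orbit (Q : Subgroup G) (a : Ω) :
    Nat.card (orbit Q a) = (stabilizer G a).relIndex Q := (index_stabilizer Q a).symm

/-- The degree is a sum of orbit lengths. -/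
theorem mod_dvd (Q : Subgroup G) {M : ℕ} (h : ∀ a : Ω, M ∣ (stabilizer G a).relIndex Q) :
    M ∣ Nat.card Ω := by
  classical
  haveI := Fintype.ofFinite (orbitRel.Quotient Q Ω)
  rw [Nat.card_congr (selfEquivSigmaOrbits Q Ω), Nat.card_sigma]
  exact Finset.dvd_sum fun ω _ => card_orbit Q ω.out ▸ h _

theorem stab_smul (g : G) (a : Ω) : stabilizer G (g • a) = cj g (stabilizer G a) :=
  stabilizer_smul_eq_stabilizer_map_conj g a

/-- A transitive subgroup `T` gives `G = K T`. -/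
theorem fact_of_trans {T : Subgroup G} {a : Ω} (h : ∀ b : Ω, ∃ t ∈ T, t • b = a) (g : G) :
    ∃ k ∈ stabilizer G a, ∃ t ∈ T, g = k * t := by
  obtain ⟨t, ht, e⟩ := h (g⁻¹ • a)
  exact ⟨g * t⁻¹, by rw [mem_stabilizer_iff, mul_smul, ← e, inv_smul_smul, e, smul_inv_smul], t, ht,
    by simp⟩

section B
variable [Fact p.Prime] {Z : Subgroup G} (h : CB p G Ω) (U : Sylow p G)
  (hZ : normalizer ((U : Subgroup G) : Set G) ≤ normalizer (Z : Set G))
include h hZ

theorem CB.conj (a : Ω) (g : G) : ∃ k ∈ stabilizer G a, cj g Z = cj k Z := by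
  obtain ⟨k, hk, t, ht, rfl⟩ := fact_of_trans (fun b => h.bt U b a) g
  exact ⟨k, hk, by rw [← cj_cj, cj_eq_self (hZ ht)]⟩

theorem CB.card_eq (a b : Ω) (g : G) :
    Nat.card ↥(stabilizer G a ⊓ cj g Z) = Nat.card ↥(stabilizer G b ⊓ Z) := by
  obtain ⟨k, hk, e⟩ := h.conj U hZ a g
  obtain ⟨t, ht, rfl⟩ := h.bt U a b
  rw [e, ← H98.cj_eq_self_of_mem hk, ← cj_inf, card_cj, stab_smul]
  conv_rhs => rw [← cj_eq_self (hZ ht), ← cj_inf, card_cj]

theorem CB.not_le (h1 : Z ≠ ⊥) (a : Ω) (g : G) : ¬ cj g Z ≤ stabilizer G a := fun c => h1 <|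
  eq_bot_iff.2 fun z hz => h.eq_one fun b => by
    have := h.card_eq U hZ a b g
    rw [inf_eq_right.2 c, card_cj] at this
    exact (eq_of_le_of_card_ge inf_le_right this.le).ge hz |>.1

/-- Case B1: the elements of `Z#` and their conjugates have no fixed points. -/
theorem CB.fpf {a : Ω} (h1 : stabilizer G a ⊓ Z = ⊥) (b : Ω) (g : G) :
    stabilizer G b ⊓ cj g Z = ⊥ := by
  rw [← card_eq_one, h.card_eq U hZ b a g, h1, card_bot]

end B

theorem card_part {E X : Subgroup G} (L : Finset (Subgroup G)) (hX : X ≤ E)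
    (cov : ∀ x ∈ E, x ≠ 1 → ∃ Y ∈ L, x ∈ Y) (ti : ∀ Y ∈ L, ∀ W ∈ L, Y ≠ W → Y ⊓ W = ⊥) :
    Nat.card X - 1 = ∑ Y ∈ L, (Nat.card ↥(X ⊓ Y) - 1) := by
  classical
  haveI := Fintype.ofFinite G
  have k : ∀ X : Subgroup G, Nat.card X - 1 = ((X : Set G).toFinset.erase 1).card := fun X => by
    rw [Finset.card_erase_of_mem (by simp), Set.toFinset_card, Nat.card_eq_fintype_card]; rfl
  simp only [k]
  rw [← Finset.card_biUnion]
  · congr 1
    ext x
    simp only [Finset.mem_erase, Set.mem_toFinset, SetLike.mem_coe, Finset.mem_biUnion, mem_inf]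
    exact ⟨fun ⟨a, b⟩ => let ⟨Y, c, d⟩ := cov x (hX b) a; ⟨Y, c, a, b, d⟩,
      fun ⟨_, _, a, b, _⟩ => ⟨a, b⟩⟩
  · intro Y hY W hW c
    refine Finset.disjoint_left.2 fun x a b => ?_
    simp only [Finset.mem_erase, Set.mem_toFinset, SetLike.mem_coe, mem_inf] at a b
    exact a.1 (mem_bot.1 (ti Y hY W hW c ▸ ⟨a.2.2, b.2.2⟩))

theorem lines_arith (hp : p.Prime) {f j m : ℕ} (h1 : j < f)
    (h : p ^ m - 1 = (p ^ f + 1) * (p ^ j - 1)) : j = 0 := by
  have a := fun k => Nat.one_le_pow k p hp.pos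
  have e : p ^ m + p ^ f = p ^ f * p ^ j + p ^ j := by
    have := a m
    obtain ⟨t, ht⟩ := Nat.exists_eq_add_of_le (a j)
    rw [ht, Nat.add_sub_cancel_left] at h
    rw [ht]
    nlinarith [Nat.sub_add_cancel (a m)]
  by_contra c
  have j2 : p ^ 1 ≤ p ^ j := Nat.pow_le_pow_right hp.pos (by omega)
  have p2 := hp.two_le
  rcases le_or_gt m j with b | b
  · have := Nat.pow_le_pow_right hp.pos b
    have := a f
    rw [pow_one] at j2
    nlinarith
  · have d1 : p ^ (j + 1) ∣ p ^ f := pow_dvd_pow p h1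
    have : p ^ (j + 1) ∣ p ^ j := (Nat.dvd_add_right (d1.mul_right _)).1
      (e ▸ dvd_add (pow_dvd_pow p b) d1)
    exact absurd ((Nat.pow_dvd_pow_iff_le_right hp.one_lt).1 this) (by omega)

/-- LINES: a subgroup of order `|Z| ^ 2` partitioned by conjugates of `Z`. -/
theorem CB.lines [hp : Fact p.Prime] {Z E : Subgroup G} (h : CB p G Ω) (U : Sylow p G)
    (hZ : normalizer ((U : Subgroup G) : Set G) ≤ normalizer (Z : Set G)) {f : ℕ} (hf : 0 < f)
    (cZ : Nat.card Z = p ^ f) (cE : Nat.card E = p ^ (2 * f))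
    (cov : ∀ x ∈ E, x ≠ 1 → ∃ g, x ∈ cj g Z ∧ cj g Z ≤ E)
    (ti : ∀ g k, cj g Z ≤ E → cj k Z ≤ E → cj g Z ≠ cj k Z → cj g Z ⊓ cj k Z = ⊥) (a : Ω) (g : G) :
    stabilizer G a ⊓ cj g Z = ⊥ := by
  classical
  haveI := Fintype.ofFinite (Subgroup G)
  let L := Finset.univ.filter fun Y : Subgroup G => (∃ g, Y = cj g Z) ∧ Y ≤ E
  have mL : ∀ {Y}, Y ∈ L ↔ (∃ g, Y = cj g Z) ∧ Y ≤ E := by simp [L]
  have k : ∀ X ≤ E, Nat.card X - 1 = ∑ Y ∈ L, (Nat.card ↥(X ⊓ Y) - 1) := fun X hX =>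
    card_part L hX (fun x a b => let ⟨g, c, d⟩ := cov x a b; ⟨_, mL.2 ⟨⟨g, rfl⟩, d⟩, c⟩)
      fun Y a W b c => by
        obtain ⟨⟨g, rfl⟩, a⟩ := mL.1 a
        obtain ⟨⟨k, rfl⟩, b⟩ := mL.1 b
        exact ti g k a b c
  have q1 : 1 < p ^ f := Nat.one_lt_pow hf.ne' hp.out.one_lt
  have k1 := k E le_rfl
  rw [Finset.sum_congr rfl (g := fun _ => p ^ f - 1) fun Y a => by
    obtain ⟨⟨g, rfl⟩, a⟩ := mL.1 a
    rw [inf_eq_right.2 a, card_cj, cZ], Finset.sum_const, smul_eq_mul, cE, pow_mul',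
    ← one_pow 2, Nat.sq_sub_sq, one_pow] at k1
  have cL := Nat.eq_of_mul_eq_mul_right (by omega) k1
  obtain ⟨j, hj, ej⟩ := (Nat.dvd_prime_pow hp.out).1
    (cZ ▸ card_dvd_of_le (inf_le_right : stabilizer G a ⊓ Z ≤ Z))
  obtain ⟨m, -, em⟩ := (Nat.dvd_prime_pow hp.out).1
    (cE ▸ card_dvd_of_le (inf_le_right : stabilizer G a ⊓ E ≤ E))
  have k2 := k _ (inf_le_right : stabilizer G a ⊓ E ≤ E)
  rw [Finset.sum_congr rfl (g := fun _ => p ^ j - 1) fun Y b => by
    obtain ⟨⟨g, rfl⟩, b⟩ := mL.1 b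
    rw [inf_assoc, inf_eq_right.2 b, h.card_eq U hZ a a, ej], Finset.sum_const, smul_eq_mul, em,
    ← cL] at k2
  have z1 : Z ≠ ⊥ := fun e => by rw [e, card_bot] at cZ; omega
  have jf : j < f := hj.lt_of_ne fun e => h.not_le U hZ z1 a 1 (by
    rw [H98.cj_one, ← eq_of_le_of_card_ge (inf_le_right : stabilizer G a ⊓ Z ≤ Z)
      (by rw [ej, e, cZ])]
    exact inf_le_left)
  rw [← card_eq_one, h.card_eq U hZ a a, ej, lines_arith hp.out jf k2, pow_zero]

theorem trans_of_relIndex {T : Subgroup G} {a : Ω} (h : (stabilizer G a).relIndex T = Nat.card Ω)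
    (b : Ω) : ∃ t ∈ T, t • a = b := by
  have : orbit T a = Set.univ := Set.eq_of_subset_of_ncard_le (Set.subset_univ _) (by
    rw [Set.ncard_univ, ← h, ← card_orbit]; rfl)
  obtain ⟨t, e⟩ : b ∈ orbit T a := this ▸ Set.mem_univ b
  exact ⟨t, t.2, e⟩

theorem relIndex_of_trans {T : Subgroup G} {a : Ω} (h : ∀ b, ∃ t ∈ T, t • a = b) :
    (stabilizer G a).relIndex T = Nat.card Ω := by
  rw [← card_orbit, Set.eq_univ_of_forall (s := orbit T a) fun b =>
    let ⟨t, ht, e⟩ := h b; ⟨⟨t, ht⟩, e⟩]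
  exact Nat.card_congr (Equiv.Set.univ Ω)

/-- In prime power degree the Sylow subgroups are transitive. -/
theorem Act.ppow_trans [hp : Fact p.Prime] (h : Act G Ω) {k : ℕ} (hn : Nat.card Ω = p ^ k)
    (U : Sylow p G) (a b : Ω) : ∃ u ∈ (U : Subgroup G), u • a = b := by
  refine trans_of_relIndex (le_antisymm ?_ (Nat.le_of_dvd (Nat.pos_of_ne_zero
    (index_ne_zero_of_finite (H := (stabilizer G a).subgroupOf U))) ?_)) b
  · rw [← card_orbit]
    exact Nat.card_le_card_of_injective _ Subtype.val_injective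
  · have e1 := relIndex_mul_index (inf_le_right : stabilizer G a ⊓ U ≤ U)
    have e2 := index_dvd_of_le (inf_le_left : stabilizer G a ⊓ U ≤ _)
    rw [← e1, inf_relIndex_right, h.index, hn] at e2
    rw [hn]
    exact (Nat.Coprime.pow_left k ((Nat.Prime.coprime_iff_not_dvd hp.out).2
      U.not_dvd_index)).dvd_of_dvd_mul_right e2

/-- Q-ORBIT KILL, first half: a normal subgroup `Q` of a transitive group `P` with at most `c`
orbits; the number of orbits is the index of a subgroup over `Q` and divides the degree. -/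
theorem qorb {P Q : Subgroup G} (hP : ∀ a b : Ω, ∃ t ∈ P, t • a = b) (hQ : Q ≤ P)
    (hn : P ≤ normalizer (Q : Set G)) (a : Ω) :
    (Q ⊔ (stabilizer G a ⊓ P)).relIndex P * (stabilizer G a).relIndex Q = Nat.card Ω := by
  have le : Q ⊔ (stabilizer G a ⊓ P) ≤ P := sup_le hQ inf_le_right
  have e1 := relIndex_mul_relIndex (stabilizer G a ⊓ P) _ P le_sup_right le
  rw [inf_relIndex_right, relIndex_of_trans (hP a)] at e1
  rw [← e1, mul_comm]
  congr 1
  have : (stabilizer G a ⊓ P).relIndex (Q ⊔ (stabilizer G a ⊓ P)) =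
      (stabilizer G a).relIndex (Q ⊔ (stabilizer G a ⊓ P)) := by
    rw [← inf_relIndex_right (stabilizer G a), ← inf_relIndex_right (stabilizer G a ⊓ P), inf_assoc,
      inf_eq_right.2 le]
  rw [this, ← card_orbit, ← card_orbit]
  congr 2
  refine Set.Subset.antisymm (fun _ ⟨t, e⟩ => ⟨⟨t, mem_sup_left t.2⟩, e⟩) ?_
  rintro _ ⟨⟨t, ht⟩, rfl⟩
  rw [← SetLike.mem_coe, coe_mul_of_right_le_normalizer_left _ _ (inf_le_right.trans hn)] at ht
  obtain ⟨x, hx, k, hk, rfl⟩ := ht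
  exact ⟨⟨x, hx⟩, by change x • a = (x * k) • a; rw [mul_smul, hk.1]⟩

theorem qorb_trans [hp : Fact p.Prime] {P Q : Subgroup G} (hP : ∀ a b : Ω, ∃ t ∈ P, t • a = b)
    (hQ : Q ≤ P) (hn : P ≤ normalizer (Q : Set G)) {k c : ℕ} (e : Nat.card Ω = p ^ k) (a : Ω)
    (hc : Nat.card Ω ≤ c * (stabilizer G a).relIndex Q)
    (hm : ∀ M : Subgroup G, Q ≤ M → M ≤ P → ∀ i, M.relIndex P = p ^ i → p ^ i ≤ c → i = 0) :
    (stabilizer G a).relIndex Q = Nat.card Ω := by
  have k1 := qorb hP hQ hn a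
  obtain ⟨i, -, hi⟩ := (Nat.dvd_prime_pow hp.out).1 (e ▸ Dvd.intro _ k1)
  have := hm _ le_sup_left (sup_le hQ inf_le_right) i hi (Nat.le_of_mul_le_mul_right
    (c := (stabilizer G a).relIndex Q) (by rw [← hi, k1]; exact hc) (Nat.pos_of_ne_zero
      (index_ne_zero_of_finite (H := (stabilizer G a).subgroupOf Q))))
  rwa [hi, this, pow_zero, one_mul] at k1

/-- Q-ORBIT KILL, second half: `P` normalises `Q_a Z`. -/
theorem norm_YZ {P Q Z : Subgroup G} (hQ : Q ≤ P) (hn : P ≤ normalizer (Q : Set G))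
    (hz : P ≤ normalizer (Z : Set G)) (a : Ω) (ht : ∀ b, ∃ t ∈ Q, t • a = b)
    (hc : ∀ x ∈ Q, ∀ y ∈ stabilizer G a ⊓ Q, ⁅x, y⁆ ∈ (stabilizer G a ⊓ Q) ⊔ Z) :
    P ≤ normalizer (((stabilizer G a ⊓ Q) ⊔ Z : Subgroup G) : Set G) := fun g hg => by
  obtain ⟨x, hx, e⟩ := ht (g • a)
  have k : x⁻¹ * g ∈ stabilizer G a := by rw [mem_stabilizer_iff, mul_smul, ← e, inv_smul_smul]
  have kP : x⁻¹ * g ∈ P := mul_mem (inv_mem (hQ hx)) hg
  rw [← mul_inv_cancel_left x g]
  refine mul_mem (H98.mem_normalizer_of_cj_le ?_) (H98.cj_eq_self_iff.1 ?_)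
  · rw [H98.cj_sup, cj_eq_self (hz (hQ hx))]
    refine sup_le ?_ le_sup_right
    rintro _ ⟨y, hy, rfl⟩
    have := mul_mem (hc x hx y hy) (mem_sup_left hy)
    rwa [commutatorElement_def, inv_mul_cancel_right] at this
  · rw [H98.cj_sup, cj_inf, H98.cj_eq_self_of_mem k, cj_eq_self (hn kP), cj_eq_self (hz kP)]

end H32.CK
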