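/- CKS (S2193): subgroups of special groups meeting the centre trivially. -/
import Cfsg.Agent.H32.CKKit

set_option autoImplicit false

namespace H32.CK
open Subgroup MulAction
open scoped commutatorElement

theorem special_top {H : Type*} [Group H] [Finite H] {Z Y : Subgroup H} (hc : Z ≤ center H)
    (hk : ∀ x y : H, ⁅x, y⁆ ∈ Z) (hs : ∀ x ∉ Z, ∀ z ∈ Z, ∃ y, ⁅x, y⁆ = z) (hi : Y ⊓ Z = ⊥)
    (h1 : 1 < Nat.card Z) : Nat.card Z * Nat.card Y ^ 2 ≤ Nat.card H := by
  classical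
  haveI := Fintype.ofFinite H
  let f : H → H →* H := fun x => MonoidHom.mk' (fun y => ⁅x, y⁆) fun y z => by
    have := mem_center_iff.1 (hc (hk x z)) y
    rw [← mul_inv_eq_iff_eq_mul] at this
    rw [← this]
    simp [commutatorElement_def, mul_assoc]
  have ck : ∀ {A : Type _} [Group A] [Fintype A] (g : A →* H),
      (Finset.univ.filter fun a => g a = 1).card * Nat.card g.range = Nat.card A := fun g => by
    rw [← index_ker, ← g.ker.card_mul_index, Nat.card_eq_fintype_card (α := g.ker),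
      Fintype.card_subtype]
    simp only [MonoidHom.mem_ker]
  obtain ⟨t, ht⟩ := Nat.exists_eq_add_of_lt h1
  have a : ∀ y : Y, (Finset.univ.filter fun x => f y x = 1).card * Nat.card Z =
      Nat.card H + if y = 1 then Nat.card H * (t + 1) else 0 := fun y => by
    split_ifs with c
    · subst c
      rw [Finset.filter_true_of_mem fun x _ => by simp [f], Finset.card_univ, ht,
        Nat.card_eq_fintype_card]
      ring
    · have : (f y).range = Z := le_antisymm (by rintro _ ⟨x, rfl⟩; exact hk _ _)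
        (hs y fun e => c (Subtype.ext (mem_bot.1 (hi ▸ ⟨y.2, e⟩))))
      rw [← this, ck, add_zero]
  have b : ∀ x : H, (Nat.card Y + if x ∈ centralizer (Y : Set H) then Nat.card Y * (t + 1) else 0) ≤
      (Finset.univ.filter fun y : Y => f y x = 1).card * Nat.card Z := fun x => by
    split_ifs with c
    · rw [Finset.filter_true_of_mem (p := fun y : Y => f y x = 1) fun y _ =>
        commutatorElement_eq_one_iff_mul_comm.2 (c y y.2), Finset.card_univ, ht, Nat.card_eq_fintype_card]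
      exact le_of_eq (by ring)
    · rw [add_zero, ← ck ((f x).comp Y.subtype)]
      refine Nat.mul_le_mul (le_of_eq (congrArg _ (Finset.filter_congr fun y _ => ?_)))
        (card_le_of_le (by rintro _ ⟨x, rfl⟩; exact hk _ _))
      exact commutatorElement_eq_one_iff_mul_comm.trans
        (eq_comm.trans commutatorElement_eq_one_iff_mul_comm.symm)
  have s := Finset.sum_le_sum (s := Finset.univ) fun x _ => b x
  have e : ∑ x : H, (Finset.univ.filter fun y : Y => f y x = 1).card =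
      ∑ y : Y, (Finset.univ.filter fun x => f y x = 1).card := by
    simp only [Finset.card_filter]
    exact Finset.sum_comm
  rw [← Finset.sum_mul, e, Finset.sum_mul, Finset.sum_congr rfl fun y _ => a y,
    Finset.sum_add_distrib, Finset.sum_add_distrib, Finset.sum_ite_eq', ← Finset.sum_filter] at s
  simp only [Finset.sum_const, Finset.card_univ, smul_eq_mul, Finset.mem_univ, if_true,
    ← Nat.card_eq_fintype_card] at s
  have w : Nat.card Y * Nat.card Z ≤
      (Finset.univ.filter (· ∈ centralizer (Y : Set H))).card := by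
    rw [← Fintype.card_subtype, ← Nat.card_eq_fintype_card, ← Nat.card_prod]
    refine Nat.card_le_card_of_injective (fun u => ⟨u.1 * u.2, mul_mem (fun y hy => ?_)
      (center_le_centralizer _ (hc u.2.2))⟩) fun u v e =>
        mul_injective_of_disjoint (disjoint_iff.2 hi) (congrArg Subtype.val e)
    refine commutatorElement_eq_one_iff_mul_comm.1 (mem_bot.1 (hi ▸ ⟨?_, hk _ _⟩))
    exact Y.mul_mem (Y.mul_mem (Y.mul_mem hy u.1.2) (Y.inv_mem hy)) (Y.inv_mem u.1.2)
  have := Nat.mul_le_mul_right (Nat.card Y * (t + 1)) w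
  exact Nat.le_of_mul_le_mul_right (c := t + 1) (by nlinarith) t.succ_pos

variable {G Ω : Type} [Group G] [Finite G] [MulAction G Ω] [Finite Ω]

/-- `Q` of class two with `[x, Q] = Z` for all `x ∉ Z`: a subgroup `Y` meeting `Z` trivially is small. -/
theorem special_bound {Q Z Y : Subgroup G} (hZ : Z ≤ Q) (hc : ∀ z ∈ Z, ∀ x ∈ Q, x * z = z * x)
    (hk : ∀ x ∈ Q, ∀ y ∈ Q, ⁅x, y⁆ ∈ Z) (hs : ∀ x ∈ Q, x ∉ Z → ∀ z ∈ Z, ∃ y ∈ Q, ⁅x, y⁆ = z)
    (hY : Y ≤ Q) (hi : Y ⊓ Z = ⊥) (h1 : 1 < Nat.card Z) :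
    Nat.card Z * Nat.card Y ^ 2 ≤ Nat.card Q := by
  have c : ∀ {X : Subgroup G}, X ≤ Q → Nat.card (X.subgroupOf Q) = Nat.card X := fun h =>
    Nat.card_congr (subgroupOfEquivOfLe h).toEquiv
  rw [← c hZ, ← c hY]
  refine special_top (fun z hz => mem_center_iff.2 fun x => Subtype.ext (hc _ hz _ x.2))
    (fun x y => hk _ x.2 _ y.2) (fun x hx z hz => ?_) (eq_bot_iff.2 fun x hx => ?_) (c hZ ▸ h1)
  · obtain ⟨y, hy, e⟩ := hs _ x.2 hx _ hz
    exact ⟨⟨y, hy⟩, Subtype.ext e⟩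
  · exact mem_bot.2 (Subtype.ext (mem_bot.1 (hi ▸ ⟨hx.1, hx.2⟩ : (x : G) ∈ (⊥ : Subgroup G))))

/-- A `p`-group of order `p ^ N` with point stabilisers of order at most `p ^ k`. -/
theorem pow_dvd_deg {p N k : ℕ} (hp : p.Prime) {Q : Subgroup G} (cQ : Nat.card Q = p ^ N)
    (h : ∀ a : Ω, Nat.card ↥(stabilizer G a ⊓ Q) ≤ p ^ k) (a : Ω) :
    p ^ (N - k) ∣ (stabilizer G a).relIndex Q ∧ p ^ (N - k) ∣ Nat.card Ω := by
  have : ∀ a : Ω, p ^ (N - k) ∣ (stabilizer G a).relIndex Q := fun a => by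
    have e := ((stabilizer G a ⊓ Q).subgroupOf Q).card_mul_index
    rw [Nat.card_congr (subgroupOfEquivOfLe inf_le_right).toEquiv, cQ, inf_subgroupOf_right] at e
    obtain ⟨i, -, hi⟩ := (Nat.dvd_prime_pow hp).1 (Dvd.intro _ e)
    obtain ⟨j, -, hj⟩ := (Nat.dvd_prime_pow hp).1 (Dvd.intro_left _ e)
    have := h a
    rw [hi, hj, ← pow_add] at e
    rw [hi, Nat.pow_le_pow_iff_right hp.one_lt] at this
    have := Nat.pow_right_injective hp.two_le e
    exact (pow_dvd_pow p (by omega)).trans (dvd_of_eq hj.symm)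
  exact ⟨this a, mod_dvd Q this⟩

/-- B1 for `Q = q ^ (1 + 2 d)`: point stabilisers have order at most `q ^ d`, and `q ^ (d + 1) ∣ n`. -/
theorem special_mod {p f d : ℕ} (hp : p.Prime) (hf : 0 < f) {Q Z : Subgroup G} (hZ : Z ≤ Q)
    (hc : ∀ z ∈ Z, ∀ x ∈ Q, x * z = z * x) (hk : ∀ x ∈ Q, ∀ y ∈ Q, ⁅x, y⁆ ∈ Z)
    (hs : ∀ x ∈ Q, x ∉ Z → ∀ z ∈ Z, ∃ y ∈ Q, ⁅x, y⁆ = z) (cZ : Nat.card Z = p ^ f)
    (cQ : Nat.card Q = (p ^ f) ^ (2 * d + 1)) (h : ∀ a : Ω, stabilizer G a ⊓ Z = ⊥) (a : Ω) :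
    Nat.card ↥(stabilizer G a ⊓ Q) ≤ (p ^ f) ^ d ∧
      (p ^ f) ^ (d + 1) ∣ (stabilizer G a).relIndex Q ∧ (p ^ f) ^ (d + 1) ∣ Nat.card Ω := by
  have q1 : 1 < p ^ f := Nat.one_lt_pow hf.ne' hp.one_lt
  have k : ∀ a : Ω, Nat.card ↥(stabilizer G a ⊓ Q) ≤ (p ^ f) ^ d := fun a => by
    have := special_bound hZ hc hk hs (inf_le_right : stabilizer G a ⊓ Q ≤ Q)
      (by rw [inf_assoc, inf_eq_right.2 hZ, h]) (cZ ▸ q1)
    rw [cZ, cQ, pow_succ' _ (2 * d), pow_mul'] at this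
    exact (Nat.pow_le_pow_iff_left two_ne_zero).1 (Nat.le_of_mul_le_mul_left this (by omega))
  have := pow_dvd_deg hp (cQ.trans (pow_mul _ _ _).symm) (fun a => (pow_mul p f d).symm ▸ k a) a
  rw [show f * (2 * d + 1) - f * d = f * (d + 1) from Nat.sub_eq_of_eq_add (by ring), pow_mul] at this
  exact ⟨k a, this⟩

end H32.CK
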