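import Cfsg.Agent.H32.BPLat
import Cfsg.Agent.H40.Zeros
import Cfsg.Agent.H35.BSpan

/-! The projections of the lattice of generalized characters of a block. -/

set_option autoImplicit false
set_option linter.unusedSectionVars false

namespace H32.BP

open Cfsg H28 H29 Submodule
open scoped RealInnerProductSpace ComplexConjugate

/-- The standard lattice. -/
def zL (n : ℕ) : AddSubgroup (EuclideanSpace ℝ (Fin n)) where
  carrier := {m | ∀ i, ∃ z : ℤ, m i = z}
  zero_mem' := fun _ => ⟨0, by simp⟩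
  add_mem' := fun {a b} ha hb i => by
    obtain ⟨x, hx⟩ := ha i
    obtain ⟨y, hy⟩ := hb i
    exact ⟨x + y, by simp [hx, hy]⟩
  neg_mem' := fun {a} ha i => by
    obtain ⟨x, hx⟩ := ha i
    exact ⟨-x, by simp [hx]⟩

theorem zL_cov (n : ℕ) : ∃ R : ℝ, ∀ x : EuclideanSpace ℝ (Fin n), ∃ m ∈ zL n, ‖x - m‖ ≤ R := by
  refine ⟨Real.sqrt n, fun x => ⟨WithLp.toLp 2 fun i => (⌊x i⌋ : ℝ), fun i => ⟨⌊x i⌋, rfl⟩, ?_⟩⟩
  rw [EuclideanSpace.norm_eq]
  apply Real.sqrt_le_sqrt
  calc ∑ i, ‖(x - WithLp.toLp 2 fun i => (⌊x i⌋ : ℝ)) i‖ ^ 2 ≤ ∑ _i : Fin n, (1 : ℝ) := by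
        refine Finset.sum_le_sum fun i _ => ?_
        have h1 := Int.floor_le (x i)
        have h2 := Int.lt_floor_add_one (x i)
        have h3 : (x - WithLp.toLp 2 fun i => (⌊x i⌋ : ℝ)) i = x i - ⌊x i⌋ := rfl
        rw [h3, Real.norm_eq_abs, sq_abs]
        nlinarith
    _ = n := by simp

theorem zL_fin (n : ℕ) (R : ℝ) :
    {m : EuclideanSpace ℝ (Fin n) | m ∈ zL n ∧ ‖m‖ ≤ R}.Finite := by
  classical
  refine ((Fintype.piFinset fun _ : Fin n => Finset.Icc (-⌈R⌉) ⌈R⌉).finite_toSet.image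
    fun z : Fin n → ℤ => (WithLp.toLp 2 fun i => (z i : ℝ) : EuclideanSpace ℝ (Fin n))).subset ?_
  rintro m ⟨hm, hR⟩
  choose z hz using hm
  refine ⟨z, ?_, ?_⟩
  · simp only [Fintype.coe_piFinset, Set.mem_pi, Set.mem_univ, forall_true_left, Finset.coe_Icc,
      Set.mem_Icc]
    intro i
    have h1 : ‖m i‖ ≤ ‖m‖ := PiLp.norm_apply_le m i
    rw [hz i, Real.norm_eq_abs, abs_le] at h1
    have h2 := Int.le_ceil R
    constructor
    · have : (-(⌈R⌉ : ℝ)) ≤ z i := by linarith [h1.1]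
      exact_mod_cast this
    · have : (z i : ℝ) ≤ ⌈R⌉ := by linarith [h1.2]
      exact_mod_cast this
  · ext i
    exact (hz i).symm

variable {G : Type*} [Group G] [Fintype G] {n : ℕ}

/-- Real combinations of a family of functions. -/
noncomputable def th (χ : Fin n → G → ℂ) : EuclideanSpace ℝ (Fin n) →ₗ[ℝ] (G → ℂ) where
  toFun c := fun g => ∑ i, (c i : ℂ) * χ i g
  map_add' c d := by
    ext g
    simp [add_mul, Finset.sum_add_distrib]
  map_smul' t c := by
    ext g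
    simp [Finset.mul_sum, mul_assoc]

theorem th_apply (χ : Fin n → G → ℂ) (c : EuclideanSpace ℝ (Fin n)) (g : G) :
    th χ c g = ∑ i, (c i : ℂ) * χ i g := rfl

theorem inner_eq {χ : Fin n → G → ℂ}
    (h : ∀ i j, classInner (χ i) (χ j) = if i = j then 1 else 0)
    (c d : EuclideanSpace ℝ (Fin n)) :
    ((⟪c, d⟫ : ℝ) : ℂ) = (Nat.card G : ℂ)⁻¹ * ∑ g, th χ c g * conj (th χ d g) := by
  have h1 : ∀ i j, (Nat.card G : ℂ)⁻¹ * ∑ g, χ i g * conj (χ j g) = if i = j then 1 else 0 := h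
  have h2 : (Nat.card G : ℂ)⁻¹ * ∑ g, th χ c g * conj (th χ d g) =
      ∑ i, ∑ j, (c i : ℂ) * (d j : ℂ) * ((Nat.card G : ℂ)⁻¹ * ∑ g, χ i g * conj (χ j g)) := by
    simp only [th_apply, map_sum, map_mul, Complex.conj_ofReal, Finset.sum_mul_sum]
    simp only [Finset.mul_sum]
    rw [Finset.sum_comm]
    refine Finset.sum_congr rfl fun i _ => ?_
    rw [Finset.sum_comm]
    refine Finset.sum_congr rfl fun j _ => Finset.sum_congr rfl fun g _ => ?_
    ring
  rw [h2]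
  simp only [h1, mul_ite, mul_one, mul_zero, Finset.sum_ite_eq, Finset.mem_univ, if_true]
  rw [PiLp.inner_apply]
  push_cast
  refine Finset.sum_congr rfl fun i _ => ?_
  simp [mul_comm]

theorem normsq_eq {χ : Fin n → G → ℂ}
    (h : ∀ i j, classInner (χ i) (χ j) = if i = j then 1 else 0)
    (c : EuclideanSpace ℝ (Fin n)) :
    ‖c‖ ^ 2 = (Nat.card G : ℝ)⁻¹ * ∑ g, ‖th χ c g‖ ^ 2 := by
  have h1 := inner_eq h c c
  rw [real_inner_self_eq_norm_sq] at h1
  simp only [Complex.mul_conj'] at h1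
  apply Complex.ofReal_injective
  push_cast at h1 ⊢
  exact h1

/-- The combinations supported on `R`. -/
def sV (χ : Fin n → G → ℂ) (R : G → Prop) : Submodule ℝ (EuclideanSpace ℝ (Fin n)) where
  carrier := {c | ∀ g, ¬ R g → th χ c g = 0}
  zero_mem' := fun g _ => by simp
  add_mem' := fun {a b} ha hb g hg => by
    rw [map_add, Pi.add_apply, ha g hg, hb g hg, add_zero]
  smul_mem' := fun t a ha g hg => by
    rw [map_smul, Pi.smul_apply, ha g hg, smul_zero]

theorem proj_norms {χ : Fin n → G → ℂ}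
    (h : ∀ i j, classInner (χ i) (χ j) = if i = j then 1 else 0) (R : G → Prop) [DecidablePred R]
    (hR : ∀ i, ∃ a : Fin n → ℝ, ∀ g, (if R g then χ i g else 0) = ∑ j, (a j : ℂ) * χ j g)
    (c : EuclideanSpace ℝ (Fin n)) :
    ‖(sV χ R).starProjection c‖ ^ 2 =
        (Nat.card G : ℝ)⁻¹ * ∑ g ∈ Finset.univ.filter R, ‖th χ c g‖ ^ 2 ∧
      ‖(sV χ R)ᗮ.starProjection c‖ ^ 2 =
        (Nat.card G : ℝ)⁻¹ * ∑ g ∈ Finset.univ.filter (fun g => ¬ R g), ‖th χ c g‖ ^ 2 := by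
  choose a ha using hR
  set v : EuclideanSpace ℝ (Fin n) := WithLp.toLp 2 fun j => ∑ i, c i * a i j with hv
  have hθ : ∀ g, th χ v g = if R g then th χ c g else 0 := by
    intro g
    have e1 : th χ v g = ∑ i, (c i : ℂ) * ∑ j, (a i j : ℂ) * χ j g := by
      simp only [th_apply, hv, Finset.mul_sum]
      rw [Finset.sum_comm]
      refine Finset.sum_congr rfl fun j _ => ?_
      push_cast
      rw [Finset.sum_mul]
      refine Finset.sum_congr rfl fun i _ => ?_
      ring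
    rw [e1]
    simp only [← ha]
    split_ifs
    · rfl
    · simp
  have hθ' : ∀ g, th χ (c - v) g = if ¬ R g then th χ c g else 0 := by
    intro g
    rw [map_sub, Pi.sub_apply, hθ]
    by_cases hg : R g <;> simp [hg]
  have hvV : v ∈ sV χ R := fun g hg => by rw [hθ, if_neg hg]
  have hP : (sV χ R).starProjection c = v := by
    apply eq_starProjection_of_mem_of_inner_eq_zero hvV
    intro w hw
    have e1 := inner_eq h (c - v) w
    rw [Finset.sum_eq_zero, mul_zero] at e1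
    · exact_mod_cast e1
    · intro g _
      by_cases hg : R g
      · rw [hθ']; simp [hg]
      · rw [hw g hg]; simp
  have hP' : (sV χ R)ᗮ.starProjection c = c - v := by
    rw [← hP, starProjection_orthogonal_val]
  rw [hP, hP', normsq_eq h, normsq_eq h, Finset.sum_filter, Finset.sum_filter]
  constructor
  · congr 1
    refine Finset.sum_congr rfl fun g _ => ?_
    rw [hθ]; split_ifs <;> simp
  · congr 1
    refine Finset.sum_congr rfl fun g _ => ?_
    rw [hθ']; split_ifs <;> simp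

theorem card_le_sum_normsq {ψ : G → ℂ} (hint : ∀ g, IsIntegral ℤ (ψ g))
    (hgal : ∀ σ : ℂ ≃+* ℂ, ∃ m : ℕ, m.Coprime (Nat.card G) ∧ ∀ g, σ (ψ g) = ψ (g ^ m))
    (s : Finset G) (hs : ∀ m : ℕ, m.Coprime (Nat.card G) → ∀ g, g ∈ s ↔ g ^ m ∈ s)
    (hne : ∀ g ∈ s, ψ g ≠ 0) : (s.card : ℝ) ≤ ∑ g ∈ s, ‖ψ g‖ ^ 2 := by
  have h0 : (1 : ℝ) ≤ ∏ g ∈ s, ‖ψ g‖ := by
    have hint' : IsIntegral ℤ (∏ g ∈ s, ψ g) := IsIntegral.prod _ fun g _ => hint g
    obtain ⟨z, hz⟩ := exists_int_of_forall_fixed hint' (fun σ => by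
      obtain ⟨m, hm, hσ⟩ := hgal σ
      rw [map_prod]
      exact Finset.prod_equiv (powCoprime hm.symm) (fun g => hs m hm g) (fun g _ => hσ g))
    have hz0 : z ≠ 0 := by
      rintro rfl
      exact Finset.prod_ne_zero_iff.mpr hne (by simpa using hz)
    rw [← norm_prod, hz, Complex.norm_intCast]
    exact_mod_cast Int.one_le_abs hz0
  have h1 : (1 : ℝ) ≤ ∏ g ∈ s, ‖ψ g‖ ^ 2 := by
    rw [Finset.prod_pow]
    exact one_le_pow₀ h0
  have h2 : (0 : ℝ) ≤ ∑ g ∈ s, (‖ψ g‖ ^ 2 - 1) := by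
    refine (Real.log_nonneg h1).trans ?_
    rw [Real.log_prod (fun g hg => pow_ne_zero _ (norm_ne_zero_iff.mpr (hne g hg)))]
    exact Finset.sum_le_sum fun g hg =>
      Real.log_le_sub_one_of_pos (pow_pos (norm_pos_iff.mpr (hne g hg)) _)
  rw [Finset.sum_sub_distrib, Finset.sum_const, nsmul_eq_mul, mul_one] at h2
  linarith

theorem one_sub_two_ne {z : ℂ} (hz : IsIntegral ℤ z) : 1 - 2 * z ≠ 0 := by
  intro h
  have h1 : z = ((1 / 2 : ℚ) : ℂ) := by push_cast; linear_combination (-1 / 2 : ℂ) * h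
  obtain ⟨a, ha⟩ := exists_int_of_forall_fixed hz (fun σ => by rw [h1, map_ratCast])
  have h2 : ((1 - 2 * a : ℤ) : ℂ) = 0 := by push_cast; rw [← ha]; exact h
  have h3 : (1 - 2 * a : ℤ) = 0 := by exact_mod_cast h2
  omega

theorem vor_aux {χ : Fin n → G → ℂ} (hχ : ∀ i, IsCharacter G (χ i)) {i0 : Fin n}
    (h0 : χ i0 = fun _ => 1) (s : Finset G)
    (hs : ∀ m : ℕ, m.Coprime (Nat.card G) → ∀ g, g ∈ s ↔ g ^ m ∈ s)
    {m : EuclideanSpace ℝ (Fin n)} (hm : m ∈ zL n) :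
    ∑ g ∈ s, ‖th χ (EuclideanSpace.single i0 1) g‖ ^ 2 ≤
      ∑ g ∈ s, ‖th χ (EuclideanSpace.single i0 1 - (2 : ℝ) • m) g‖ ^ 2 := by
  choose z hz using hm
  have e1 : ∀ g, th χ (EuclideanSpace.single i0 1) g = 1 := by
    intro g
    rw [th_apply, Finset.sum_eq_single i0]
    · simp [h0]
    · intro j _ hj
      simp [hj]
    · simp
  have e2 : ∀ g, th χ (EuclideanSpace.single i0 1 - (2 : ℝ) • m) g =
      1 - 2 * ∑ i, (z i : ℂ) * χ i g := by
    intro g
    rw [map_sub, map_smul, Pi.sub_apply, Pi.smul_apply, e1, th_apply]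
    simp [hz]
  have hint : ∀ g, IsIntegral ℤ (∑ i, (z i : ℂ) * χ i g) := fun g =>
    IsIntegral.sum _ fun i _ => (isIntegral_intCast _).mul ((hχ i).isIntegral g)
  simp only [e1, e2, norm_one, one_pow, Finset.sum_const, nsmul_eq_mul, mul_one]
  refine card_le_sum_normsq (ψ := fun g => 1 - 2 * ∑ i, (z i : ℂ) * χ i g) (fun g => ?_)
    (fun σ => ?_) s hs (fun g _ => one_sub_two_ne (hint g))
  · exact isIntegral_one.sub ((isIntegral_natCast 2).mul (hint g))
  · obtain ⟨k, hk, hσ⟩ := exists_pow_char_of_ringHom G σ.toRingHom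
    refine ⟨k, hk, fun g => ?_⟩
    have h2 : σ 2 = 2 := map_ofNat σ 2
    simp only [map_sub, map_one, map_mul, map_sum, map_intCast, h2]
    congr 2
    refine Finset.sum_congr rfl fun i _ => ?_
    rw [← hσ _ (hχ i) g]
    rfl

/-- The proportion of a Galois-stable set that splits an orthonormal family takes finitely many
values. -/
theorem finite_ratio (n : ℕ) (i0 : Fin n) : ∃ F : Set ℝ, F.Finite ∧
    ∀ (G : Type*) [Group G] [Fintype G] (χ : Fin n → G → ℂ) (R : G → Prop) [DecidablePred R],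
      (∀ i, IsCharacter G (χ i)) → χ i0 = (fun _ => 1) →
      (∀ i j, classInner (χ i) (χ j) = if i = j then 1 else 0) →
      (∀ i, ∃ a : Fin n → ℝ, ∀ g, (if R g then χ i g else 0) = ∑ j, (a j : ℂ) * χ j g) →
      (∀ m : ℕ, m.Coprime (Nat.card G) → ∀ g, R g ↔ R (g ^ m)) →
      (Nat.card G : ℝ)⁻¹ * (Finset.univ.filter R).card ∈ F := by
  obtain ⟨F, hF, h⟩ := finite_vor (zL n) (zL_cov n) (zL_fin n) (EuclideanSpace.single i0 1)
  refine ⟨(fun r => r ^ 2) '' F, hF.image _, fun G _ _ χ R _ hχ h0 horth hR hgal => ?_⟩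
  have hc : (0 : ℝ) ≤ (Nat.card G : ℝ)⁻¹ := by positivity
  refine ⟨_, h (sV χ R) (fun m hm => ?_) (fun m hm => ?_), ?_⟩
  · rw [← map_smul, ← map_sub]
    refine (pow_le_pow_iff_left₀ (norm_nonneg _) (norm_nonneg _) two_ne_zero).1 ?_
    rw [(proj_norms horth R hR _).1, (proj_norms horth R hR _).1]
    exact mul_le_mul_of_nonneg_left
      (vor_aux hχ h0 _ (fun m hm g => by simp [← hgal m hm g]) hm) hc
  · rw [← map_smul, ← map_sub]
    refine (pow_le_pow_iff_left₀ (norm_nonneg _) (norm_nonneg _) two_ne_zero).1 ?_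
    rw [(proj_norms horth R hR _).2, (proj_norms horth R hR _).2]
    exact mul_le_mul_of_nonneg_left
      (vor_aux hχ h0 _ (fun m hm g => by simp [← hgal m hm g]) hm) hc
  · simp only
    rw [(proj_norms horth R hR _).1]
    have e1 : ∀ g, th χ (EuclideanSpace.single i0 1) g = 1 := by
      intro g
      rw [th_apply, Finset.sum_eq_single i0]
      · simp [h0]
      · intro j _ hj
        simp [hj]
      · simp
    simp [e1]

end H32.BP
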