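import Cfsg.Agent.Base

/-! Orthogonal projections of a lattice: finiteness of separated projections, Voronoi cells. -/

set_option autoImplicit false
set_option linter.unusedSectionVars false

namespace H32.BP

open Submodule
open scoped RealInnerProductSpace

variable {E : Type*} [NormedAddCommGroup E] [InnerProductSpace ℝ E] [FiniteDimensional ℝ E]

/-- Uniform Dirichlet approximation. -/
theorem dirichlet (L : AddSubgroup E) (hcov : ∃ R : ℝ, ∀ x : E, ∃ m ∈ L, ‖x - m‖ ≤ R)
    {ε : ℝ} (hε : 0 < ε) :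
    ∃ N : ℕ, ∀ x : E, ∃ t : ℕ, 1 ≤ t ∧ t ≤ N ∧ ∃ m ∈ L, ‖(t : ℝ) • x - m‖ < ε := by
  classical
  obtain ⟨R, hR⟩ := hcov
  obtain ⟨T, -, hT, hcover⟩ := finite_cover_balls_of_compact (isCompact_closedBall (0 : E) R)
    (half_pos hε)
  choose f hfL hf using hR
  refine ⟨hT.toFinset.card, fun x => ?_⟩
  have hc : ∀ t : ℕ, ∃ c ∈ hT.toFinset, ‖((t : ℝ) • x - f ((t : ℝ) • x)) - c‖ < ε / 2 := by
    intro t
    have h1 : ((t : ℝ) • x - f ((t : ℝ) • x)) ∈ Metric.closedBall (0 : E) R := by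
      simpa using hf _
    have h2 := hcover h1
    simp only [Set.mem_iUnion, Metric.mem_ball, dist_eq_norm] at h2
    obtain ⟨c, hc, h3⟩ := h2
    exact ⟨c, hT.mem_toFinset.2 hc, h3⟩
  choose c hcT hc using hc
  have key : ∀ a b : ℕ, a < b → b ≤ hT.toFinset.card → c a = c b →
      ∃ t : ℕ, 1 ≤ t ∧ t ≤ hT.toFinset.card ∧ ∃ m ∈ L, ‖(t : ℝ) • x - m‖ < ε := by
    intro a b hab hb he
    refine ⟨b - a, by omega, by omega, f ((b : ℝ) • x) - f ((a : ℝ) • x),
      L.sub_mem (hfL _) (hfL _), ?_⟩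
    have h1 := hc a
    have h2 := hc b
    rw [he] at h1
    have h3 : ((b - a : ℕ) : ℝ) • x - (f ((b : ℝ) • x) - f ((a : ℝ) • x)) =
        (((b : ℝ) • x - f ((b : ℝ) • x)) - c b) - (((a : ℝ) • x - f ((a : ℝ) • x)) - c b) := by
      rw [Nat.cast_sub hab.le, sub_smul]; abel
    rw [h3]
    have := norm_sub_le (((b : ℝ) • x - f ((b : ℝ) • x)) - c b)
      (((a : ℝ) • x - f ((a : ℝ) • x)) - c b)
    linarith
  obtain ⟨a, ha, b, hb, hab, he⟩ := Finset.exists_ne_map_eq_of_card_lt_of_maps_to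
    (s := Finset.range (hT.toFinset.card + 1)) (t := hT.toFinset) (by simp) (f := c)
    (fun t _ => hcT t)
  rw [Finset.mem_range] at ha hb
  rcases lt_or_gt_of_ne hab with h | h
  · exact key a b h (by omega) he
  · exact key b a h (by omega) he.symm

/-- The projection of `L` to `S` has no short nonzero vector. -/
def Sep (L : AddSubgroup E) (δ : ℝ) (S : Submodule ℝ E) : Prop :=
  ∀ m ∈ L, S.starProjection m = 0 ∨ δ ≤ ‖S.starProjection m‖

theorem finite_sep (L : AddSubgroup E) (hcov : ∃ R : ℝ, ∀ x : E, ∃ m ∈ L, ‖x - m‖ ≤ R)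
    (hfin : ∀ R : ℝ, {m : E | m ∈ L ∧ ‖m‖ ≤ R}.Finite) {δ : ℝ} (hδ : 0 < δ) :
    {S : Submodule ℝ E | Sep L δ S}.Finite := by
  obtain ⟨N, hN⟩ := dirichlet L hcov (lt_min hδ (by norm_num : (0 : ℝ) < 1 / 2))
  set A : Set E := {m : E | m ∈ L ∧ ‖m‖ ≤ N + 1} with hA
  have hspan : ∀ S : Submodule ℝ E, Sep L δ S → S = (span ℝ (A ∩ (Sᗮ : Submodule ℝ E)))ᗮ := by
    intro S hS
    have hle : span ℝ (A ∩ (Sᗮ : Submodule ℝ E)) ≤ Sᗮ := span_le.2 fun m hm => hm.2
    have h0 : span ℝ (A ∩ (Sᗮ : Submodule ℝ E)) = Sᗮ := by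
      by_contra hne
      have hlt : span ℝ (A ∩ (Sᗮ : Submodule ℝ E)) < Sᗮ := lt_of_le_of_ne hle hne
      set K := span ℝ (A ∩ (Sᗮ : Submodule ℝ E)) with hK
      obtain ⟨y, hy, hyK⟩ := SetLike.exists_of_lt hlt
      have hz0 : y - K.starProjection y ≠ 0 := by
        intro h
        apply hyK
        rw [sub_eq_zero] at h
        rw [h]
        exact starProjection_apply_mem _ _
      set z := y - K.starProjection y with hz
      have hzK : z ∈ Kᗮ := sub_starProjection_mem_orthogonal y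
      have hzS : z ∈ Sᗮ := Sᗮ.sub_mem hy (hle (starProjection_apply_mem _ _))
      set x : E := (‖z‖⁻¹ : ℝ) • z with hx
      have hx1 : ‖x‖ = 1 := by
        rw [hx, norm_smul, norm_inv, norm_norm, inv_mul_cancel₀ (norm_ne_zero_iff.2 hz0)]
      have hxK : x ∈ Kᗮ := Kᗮ.smul_mem _ hzK
      have hxS : x ∈ Sᗮ := Sᗮ.smul_mem _ hzS
      obtain ⟨t, ht1, htN, m, hmL, hm⟩ := hN x
      have hm1 : ‖(t : ℝ) • x - m‖ < δ := hm.trans_le (min_le_left _ _)
      have hm2 : ‖(t : ℝ) • x - m‖ < 1 / 2 := hm.trans_le (min_le_right _ _)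
      have hPx : S.starProjection ((t : ℝ) • x) = 0 :=
        (starProjection_apply_eq_zero_iff S).2 (Sᗮ.smul_mem _ hxS)
      have hPm : S.starProjection m = 0 := by
        rcases hS m hmL with h | h
        · exact h
        · exfalso
          have h1 : ‖S.starProjection ((t : ℝ) • x - m)‖ ≤ ‖(t : ℝ) • x - m‖ :=
            norm_starProjection_apply_le _ _
          rw [map_sub, hPx, zero_sub, norm_neg] at h1
          linarith
      have hmS : m ∈ Sᗮ := (starProjection_apply_eq_zero_iff S).1 hPm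
      have htx : ‖(t : ℝ) • x‖ = t := by rw [norm_smul, hx1]; simp
      have hmA : m ∈ A := by
        refine ⟨hmL, ?_⟩
        have h1 : m = (t : ℝ) • x - ((t : ℝ) • x - m) := by abel
        have h2 := norm_sub_le ((t : ℝ) • x) ((t : ℝ) • x - m)
        rw [← h1, htx] at h2
        have h3 : (t : ℝ) ≤ N := by exact_mod_cast htN
        linarith
      have hmK : m ∈ K := subset_span ⟨hmA, hmS⟩
      have h1 : ⟪m, x⟫ = 0 := (mem_orthogonal _ _).1 hxK m hmK
      have h2 : ⟪(t : ℝ) • x - m, x⟫ = t := by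
        rw [inner_sub_left, h1, inner_smul_left, real_inner_self_eq_norm_sq, hx1]; simp
      have h3 := real_inner_le_norm ((t : ℝ) • x - m) x
      rw [h2, hx1] at h3
      have h4 : (1 : ℝ) ≤ t := by exact_mod_cast ht1
      linarith
    rw [h0, orthogonal_orthogonal]
  have hAf : A.Finite := hfin _
  refine (hAf.finite_subsets.image fun T : Set E => (span ℝ T)ᗮ).subset fun S hS => ?_
  exact ⟨A ∩ (Sᗮ : Submodule ℝ E), Set.inter_subset_left, (hspan S hS).symm⟩

/-- The projection of `e` lies in the Voronoi cell of the projection of `2 L`. -/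
def Vor (L : AddSubgroup E) (e : E) (V : Submodule ℝ E) : Prop :=
  ∀ m ∈ L, ‖V.starProjection e‖ ≤ ‖V.starProjection e - (2 : ℝ) • V.starProjection m‖

/-- The projection of `L` to `V` is `η`-dense in `W`. -/
def Cov (L : AddSubgroup E) (V W : Submodule ℝ E) (η : ℝ) : Prop :=
  W ≤ V ∧ ∀ y ∈ W, ∃ m ∈ L, V.starProjection m ∈ W ∧ ‖y - V.starProjection m‖ ≤ η

theorem Cov.mono {L : AddSubgroup E} {V W : Submodule ℝ E} {η η' : ℝ} (h : Cov L V W η)
    (hη : η ≤ η') : Cov L V W η' :=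
  ⟨h.1, fun y hy => by
    obtain ⟨m, hm, h1, h2⟩ := h.2 y hy
    exact ⟨m, hm, h1, h2.trans hη⟩⟩

theorem cov_bot (L : AddSubgroup E) (V : Submodule ℝ E) {η : ℝ} (hη : 0 ≤ η) :
    Cov L V ⊥ η :=
  ⟨bot_le, fun y hy => ⟨0, L.zero_mem, by simp, by
    rw [(mem_bot ℝ).1 hy]; simpa using hη⟩⟩

theorem proj_split {V W : Submodule ℝ E} (h : W ≤ V) (x : E) :
    V.starProjection x = W.starProjection x + (V ⊓ Wᗮ).starProjection x := by
  have h1 : (V ⊓ Wᗮ).starProjection x = V.starProjection x - W.starProjection x := by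
    apply eq_starProjection_of_mem_of_inner_eq_zero
    · refine ⟨V.sub_mem (starProjection_apply_mem _ _) (h (starProjection_apply_mem _ _)), ?_⟩
      have e1 : V.starProjection x - W.starProjection x =
          (x - W.starProjection x) - (x - V.starProjection x) := by abel
      rw [e1]
      exact Wᗮ.sub_mem (sub_starProjection_mem_orthogonal x)
        (orthogonal_le h (sub_starProjection_mem_orthogonal x))
    · intro w hw
      have e1 : x - (V.starProjection x - W.starProjection x) =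
          (x - V.starProjection x) + W.starProjection x := by abel
      rw [e1, inner_add_left, starProjection_inner_eq_zero x w hw.1,
        (mem_orthogonal _ _).1 hw.2 _ (starProjection_apply_mem _ _), add_zero]
  rw [h1]; abel

theorem norm_le_of_vor_cov {L : AddSubgroup E} {e : E} {V W : Submodule ℝ E} {η : ℝ}
    (hV : Vor L e V) (hC : Cov L V W η) : ‖W.starProjection e‖ ≤ 2 * η := by
  set w := W.starProjection e with hw
  set s := (V ⊓ Wᗮ).starProjection e with hs
  have hwW : w ∈ W := starProjection_apply_mem _ _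
  have hsW : s ∈ Wᗮ := (starProjection_apply_mem (V ⊓ Wᗮ) e).2
  obtain ⟨m, hm, h1, h2⟩ := hC.2 ((1 / 2 : ℝ) • w) (W.smul_mem _ hwW)
  have h3 := hV m hm
  rw [proj_split hC.1 e, ← hw, ← hs] at h3
  set y := V.starProjection m with hy
  have e1 : w + s - (2 : ℝ) • y = (w - (2 : ℝ) • y) + s := by abel
  have e2 : ‖w + s‖ * ‖w + s‖ = ‖w‖ * ‖w‖ + ‖s‖ * ‖s‖ :=
    norm_add_sq_eq_norm_sq_add_norm_sq_real ((mem_orthogonal _ _).1 hsW _ hwW)
  have e3 : ‖(w - (2 : ℝ) • y) + s‖ * ‖(w - (2 : ℝ) • y) + s‖ =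
      ‖w - (2 : ℝ) • y‖ * ‖w - (2 : ℝ) • y‖ + ‖s‖ * ‖s‖ :=
    norm_add_sq_eq_norm_sq_add_norm_sq_real
      ((mem_orthogonal _ _).1 hsW _ (W.sub_mem hwW (W.smul_mem _ h1)))
  rw [e1] at h3
  have e4 : w - (2 : ℝ) • y = (2 : ℝ) • ((1 / 2 : ℝ) • w - y) := by
    rw [smul_sub, smul_smul]; norm_num
  have e5 : ‖w - (2 : ℝ) • y‖ ≤ 2 * η := by
    rw [e4, norm_smul]; simp only [Real.norm_ofNat]; linarith
  have e6 : ‖w‖ ≤ ‖w - (2 : ℝ) • y‖ := by
    have := mul_self_le_mul_self (norm_nonneg _) h3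
    rw [e2, e3] at this
    exact (mul_self_le_mul_self_iff (norm_nonneg _) (norm_nonneg _)).2 (by linarith)
  linarith

theorem cov_extend {L : AddSubgroup E} {V W : Submodule ℝ E} {η δ : ℝ} (hC : Cov L V W η)
    (hS : ¬ Sep L δ (V ⊓ Wᗮ)) :
    ∃ W' : Submodule ℝ E, Cov L V W' (η + δ) ∧
      Module.finrank ℝ W + 1 ≤ Module.finrank ℝ W' := by
  unfold Sep at hS
  push Not at hS
  obtain ⟨m, hmL, hm0, hmδ⟩ := hS
  set s := (V ⊓ Wᗮ).starProjection m with hs
  have hsm : s ∈ V ⊓ Wᗮ := starProjection_apply_mem _ _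
  have hsW : s ∉ W := fun h => hm0 (inner_self_eq_zero.1 ((mem_orthogonal _ _).1 hsm.2 _ h))
  refine ⟨W ⊔ span ℝ {s}, ⟨sup_le hC.1 ((span_singleton_le_iff_mem _ _).2 hsm.1), ?_⟩, ?_⟩
  · intro y hy
    obtain ⟨w, hw, z, hz, rfl⟩ := mem_sup.1 hy
    obtain ⟨t, rfl⟩ := mem_span_singleton.1 hz
    set a : ℤ := ⌊t⌋ with ha
    have hPW : W.starProjection m ∈ W := starProjection_apply_mem _ _
    obtain ⟨m1, hm1, h1, h2⟩ := hC.2 (w - (a : ℝ) • W.starProjection m)
      (W.sub_mem hw (W.smul_mem _ hPW))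
    have hP : V.starProjection (a • m + m1) =
        (a : ℝ) • W.starProjection m + (a : ℝ) • s + V.starProjection m1 := by
      rw [map_add, map_zsmul, proj_split hC.1 m, ← hs, ← Int.cast_smul_eq_zsmul ℝ, smul_add]
    refine ⟨a • m + m1, L.add_mem (L.zsmul_mem hmL a) hm1, ?_, ?_⟩
    · rw [hP]
      exact add_mem (add_mem (mem_sup_left (W.smul_mem _ hPW))
        (mem_sup_right (smul_mem _ _ (mem_span_singleton_self s)))) (mem_sup_left h1)
    · rw [hP]
      have e1 : w + t • s - ((a : ℝ) • W.starProjection m + (a : ℝ) • s + V.starProjection m1) =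
          (w - (a : ℝ) • W.starProjection m - V.starProjection m1) + (t - a) • s := by
        rw [sub_smul]; abel
      rw [e1]
      have e2 : ‖(t - a) • s‖ ≤ δ := by
        rw [norm_smul, Real.norm_eq_abs]
        have h3 : |t - a| ≤ 1 := by
          rw [abs_le]
          have := Int.floor_le t
          have := Int.lt_floor_add_one t
          constructor <;> linarith
        have := mul_le_mul h3 hmδ.le (norm_nonneg _) zero_le_one
        linarith
      have := norm_add_le (w - (a : ℝ) • W.starProjection m - V.starProjection m1) ((t - a) • s)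
      linarith
  · apply finrank_lt_finrank_of_lt
    refine lt_of_le_of_ne le_sup_left fun h => hsW ?_
    rw [h]
    exact mem_sup_right (mem_span_singleton_self s)

theorem main_ind (L : AddSubgroup E) (hcov : ∃ R : ℝ, ∀ x : E, ∃ m ∈ L, ‖x - m‖ ≤ R)
    (hfin : ∀ R : ℝ, {m : E | m ∈ L ∧ ‖m‖ ≤ R}.Finite) (e : E) (j : ℕ) :
    ∃ η : ℝ, 0 < η ∧ ∃ F : Set ℝ, F.Finite ∧ ∀ V W W' : Submodule ℝ E, Vor L e V →
      Vor L e Vᗮ → Cov L V W η → Cov L Vᗮ W' η →
      Module.finrank ℝ E + 1 ≤ Module.finrank ℝ W + Module.finrank ℝ W' + j →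
      ‖V.starProjection e‖ ∈ F := by
  induction j with
  | zero =>
    refine ⟨1, one_pos, ∅, Set.finite_empty, fun V W W' _ _ h1 h2 h3 => ?_⟩
    have e1 := finrank_mono h1.1
    have e2 := finrank_mono h2.1
    have e3 := V.finrank_add_finrank_orthogonal
    omega
  | succ j ih =>
    obtain ⟨η1, hη1, F1, hF1, ih⟩ := ih
    have hS := finite_sep L hcov hfin (half_pos hη1)
    have hD : ((fun q : Submodule ℝ E × Submodule ℝ E =>
        ‖e - q.1.starProjection e - q.2.starProjection e‖) ''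
        ({S | Sep L (η1 / 2) S} ×ˢ {S | Sep L (η1 / 2) S}) ∩ Set.Ioi 0).Finite :=
      ((hS.prod hS).image _).inter_of_left _
    obtain ⟨γ, hγ, hγ'⟩ : ∃ γ : ℝ, 0 < γ ∧ ∀ S S' : Submodule ℝ E, Sep L (η1 / 2) S →
        Sep L (η1 / 2) S' → ‖e - S.starProjection e - S'.starProjection e‖ < γ →
        e - S.starProjection e - S'.starProjection e = 0 := by
      rcases Set.eq_empty_or_nonempty ((fun q : Submodule ℝ E × Submodule ℝ E =>
        ‖e - q.1.starProjection e - q.2.starProjection e‖) ''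
        ({S | Sep L (η1 / 2) S} ×ˢ {S | Sep L (η1 / 2) S}) ∩ Set.Ioi 0) with h | h
      · refine ⟨1, one_pos, fun S S' h1 h2 _ => ?_⟩
        by_contra hne
        have : ‖e - S.starProjection e - S'.starProjection e‖ ∈ (∅ : Set ℝ) := by
          rw [← h]
          exact ⟨⟨(S, S'), ⟨h1, h2⟩, rfl⟩, norm_pos_iff.2 hne⟩
        exact this
      · obtain ⟨γ, hγ, hmin⟩ := Set.exists_min_image _ id hD h
        refine ⟨γ, hγ.2, fun S S' h1 h2 h3 => ?_⟩
        by_contra hne
        have := hmin _ ⟨⟨(S, S'), ⟨h1, h2⟩, rfl⟩, norm_pos_iff.2 hne⟩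
        simp only [id] at this
        linarith
    refine ⟨min (η1 / 2) (γ / 5), lt_min (half_pos hη1) (by positivity),
      F1 ∪ (fun S : Submodule ℝ E => ‖S.starProjection e‖) '' {S | Sep L (η1 / 2) S},
      hF1.union (hS.image _), fun V W W' hV hV' hC hC' hj => ?_⟩
    have hm1 := min_le_left (η1 / 2) (γ / 5)
    have hm2 := min_le_right (η1 / 2) (γ / 5)
    by_cases h1 : Sep L (η1 / 2) (V ⊓ Wᗮ)
    · by_cases h2 : Sep L (η1 / 2) (Vᗮ ⊓ W'ᗮ)
      · right
        refine ⟨V ⊓ Wᗮ, h1, ?_⟩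
        have e1 := proj_split hC.1 e
        have e2 := proj_split hC'.1 e
        have e3 : e = V.starProjection e + Vᗮ.starProjection e :=
          (V.starProjection_add_starProjection_orthogonal e).symm
        have e4 : e - (V ⊓ Wᗮ).starProjection e - (Vᗮ ⊓ W'ᗮ).starProjection e =
            W.starProjection e + W'.starProjection e := by
          conv_lhs => rw [sub_sub]; lhs; rw [e3, e1, e2]
          abel
        have e5 := norm_le_of_vor_cov hV hC
        have e6 := norm_le_of_vor_cov hV' hC'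
        have e7 := norm_add_le (W.starProjection e) (W'.starProjection e)
        have e8 := hγ' _ _ h1 h2 (by rw [e4]; linarith)
        rw [e4] at e8
        have e9 : W.starProjection e = 0 := by
          have a1 : W.starProjection e ∈ V := hC.1 (starProjection_apply_mem _ _)
          have a2 : W'.starProjection e ∈ Vᗮ := hC'.1 (starProjection_apply_mem _ _)
          have a3 : W.starProjection e = -W'.starProjection e := eq_neg_of_add_eq_zero_left e8
          have a4 : W.starProjection e ∈ Vᗮ := by rw [a3]; exact Vᗮ.neg_mem a2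
          exact inner_self_eq_zero.1 ((mem_orthogonal _ _).1 a4 _ a1)
        simp only
        rw [e1, e9, zero_add]
      · left
        obtain ⟨W1, hW1, hr⟩ := cov_extend hC' h2
        exact ih V W W1 hV hV' (hC.mono (by linarith)) (hW1.mono (by linarith)) (by omega)
    · left
      obtain ⟨W1, hW1, hr⟩ := cov_extend hC h1
      exact ih V W1 W' hV hV' (hW1.mono (by linarith)) (hC'.mono (by linarith)) (by omega)

theorem finite_vor (L : AddSubgroup E) (hcov : ∃ R : ℝ, ∀ x : E, ∃ m ∈ L, ‖x - m‖ ≤ R)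
    (hfin : ∀ R : ℝ, {m : E | m ∈ L ∧ ‖m‖ ≤ R}.Finite) (e : E) :
    ∃ F : Set ℝ, F.Finite ∧ ∀ V : Submodule ℝ E, Vor L e V → Vor L e Vᗮ →
      ‖V.starProjection e‖ ∈ F := by
  obtain ⟨η, hη, F, hF, h⟩ := main_ind L hcov hfin e (Module.finrank ℝ E + 1)
  exact ⟨F, hF, fun V h1 h2 => h V ⊥ ⊥ h1 h2 (cov_bot L V hη.le) (cov_bot L Vᗮ hη.le) (by omega)⟩

end H32.BP
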