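/- CKS (S2193): condition (C) for classical data (slot `CD` of blueprints/CKA.md). -/
import Cfsg.Agent.H9.CKASpec
import Cfsg.Agent.H57.Key

set_option autoImplicit false

namespace H32.CKD
open H54 H54.CD H57 H64 Matrix Subgroup
open scoped commutatorElement

section gen
variable {F J κ G : Type*} [Field F] [Fintype J] [DecidableEq J] [Fintype κ] [Group G] [Finite G]
  {D : CD F J κ G}

omit [Finite G] in
theorem norm_le (i j : J) : (D.wt i - D.wt j) ⬝ᵥ (D.wt i - D.wt j) ≤ 4 := by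
  have h1 := D.dot_le_one i i
  have h2 := D.dot_le_one j j
  have h3 := dot_self_nonneg (D.wt i + D.wt j)
  simp only [add_dotProduct, dotProduct_add, sub_dotProduct, dotProduct_sub] at h3 ⊢
  omega

omit [Finite G] in
theorem gram {r c : κ → ℤ} {s t : ℤ} {i j : J} (h : D.wt i - D.wt j = s • r + t • c) :
    s * s * (r ⬝ᵥ r) + 2 * (s * t) * (r ⬝ᵥ c) + t * t * (c ⬝ᵥ c) ≤ 4 := by
  have := norm_le (D := D) i j
  simp only [h, add_dotProduct, dotProduct_add, smul_dotProduct, dotProduct_smul, smul_eq_mul,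
    dotProduct_comm c r] at this
  linarith

/-- The root group of `s_r c` is covered by commutators of `X_r` and `X_c`. -/
theorem cover {r c : κ → ℤ} (hr : D.IsRoot r) (l : (κ → ℤ) →+ ℤ) (l1 : 0 < l c) (l2 : l r ≤ 0)
    (l3 : l (reflH r c) = 0) {E : AddSubsemigroup (κ → ℤ)} (hE : ∀ ν ∈ E, 0 < l ν)
    (hc : ∀ i j, D.wt i - D.wt j ∈ cone r c →
      D.wt i - D.wt j ∈ ray (reflH r c) ∨ D.wt i - D.wt j ∈ E)
    (hn : ∀ i j, D.wt i - D.wt j ∉ cone (-r) c) :
    D.US (ray (reflH r c)) ≤ ⁅D.US (ray r), D.US (ray c)⁆ ⊔ D.US E := by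
  have l4 : ∀ ν ∈ ray (reflH r c), l ν = 0 := by rintro _ ⟨t, -, rfl⟩; rw [map_zsmul, l3, smul_zero]
  obtain ⟨x, hx, x1⟩ := hr.neg.neg.exists_ne_one
  obtain ⟨u, hu, b, hb, e⟩ := hr.neg.rank_one hx x1
  rw [neg_neg] at hx
  rw [reflH_neg] at e
  have ex : ∀ z : D.US (ray c), ∃ f : D.US (ray (reflH r c)), f.1⁻¹ * ⁅x, z.1⁆ ∈ D.US E := fun z => by
    have hg := comm_mem_cone hx z.2
    obtain ⟨g, h1, h2, h3⟩ := D.exists_trunc l (g := ⁅x, z.1⁆) (Supp.of_sub_one (fun i j h =>
      (hc i j (hg i j h)).elim (fun k => (l4 _ k).ge) fun k => (hE _ k).le) (nonnegS l).zero_mem)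
    have h4 : ∀ i j, (D.ρ g - 1) i j ≠ 0 → l (D.wt i - D.wt j) = 0 ∧ D.wt i - D.wt j ∈ cone r c := by
      intro i j hij
      have hl0 : l (D.wt i - D.wt j) = 0 := by
        by_contra k
        rw [Matrix.sub_apply, h1, if_neg k, Matrix.one_apply_ne] at hij
        · simp at hij
        · rintro rfl; simp at k
      rw [Matrix.sub_apply, h1, if_pos hl0] at hij
      exact ⟨hl0, hg i j hij⟩
    refine ⟨⟨g, fun i j h => (hc i j (h4 i j h).2).resolve_right fun k => ?_⟩, fun i j h =>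
      (hc i j ((D.US (cone r c)).mul_mem ((D.US (cone r c)).inv_mem (x := g)
        fun i j h => (h4 i j h).2) hg i j h)).resolve_left fun k => (h3 i j h).ne' (l4 _ k)⟩
    exact (hE _ k).ne' (h4 i j h).1
  choose f hf using ex
  have cT : D.US (ray c) ≤ D.US (posS l) := D.US_mono (by
    rintro _ ⟨t, ht, rfl⟩
    exact (mul_pos ht l1).trans_eq (map_zsmul l t c).symm)
  have inj : Function.Injective f := fun z w k => by
    have hy := mul_mem (inv_mem w.2) z.2
    have k1 : x * (w.1⁻¹ * z.1) * x⁻¹ ∈ D.US (posS l) := by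
      have := mul_mem (mul_mem (inv_mem (cT w.2)) (D.US_mono (T := posS l) hE
        (mul_mem (inv_mem (hf w)) (hf z)))) (cT z.2)
      rw [k] at this
      simpa [commutatorElement_def, mul_assoc] using this
    have k2 := D.conj_supp (T := posS l) (inv_mem (D.US_le_PS (T := nonnegS l) (by
      rintro _ ⟨t, ht, rfl⟩
      rw [mem_nonnegS, map_zsmul, map_neg]
      exact mul_nonneg ht.le (neg_nonneg.2 l2)) hu)) k1 fun a ha s hs b hb => by
        simpa using add_pos_of_pos_of_nonneg (add_pos_of_nonneg_of_pos ha hs) hb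
    have k3 : b * (w.1⁻¹ * z.1) = w.1⁻¹ * z.1 * b := commutatorElement_eq_one_iff_mul_comm.1
      (D.eq_one_of_supp_empty fun i j h => hn i j (comm_mem_cone hb hy i j h))
    have k4 := conj_mem_ray e (reflH_reflH hr.two_div) hy
    have k5 : u⁻¹ * x * b * (w.1⁻¹ * z.1) * (u⁻¹ * x * b)⁻¹ = u⁻¹ * (x * (w.1⁻¹ * z.1) * x⁻¹) * u⁻¹⁻¹ := by
      rw [mul_assoc _ b, k3]
      group
    have := D.eq_one_of_supp_empty fun i j h => (k2 i j (k5 ▸ h)).ne' (l4 _ (k4 i j h))
    exact Subtype.ext (inv_mul_eq_one.1 (conj_eq_one_iff.1 this)).symm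
  have sur := (inj.bijective_of_nat_card_le (Nat.card_le_card_of_injective
    (fun y => (⟨_, reflH_reflH hr.two_div c ▸ conj_mem_ray e (reflH_reflH hr.two_div) y.2⟩ :
      D.US (ray c))) fun y z k => Subtype.ext (by simpa using k))).2
  intro y hy
  obtain ⟨z, k⟩ := sur ⟨y, hy⟩
  have := mul_mem (mem_sup_left (commutator_mem_commutator hx z.2))
    (mem_sup_right (S := ⁅D.US (ray r), D.US (ray c)⁆) (inv_mem (hf z)))
  rwa [k, _root_.mul_inv_rev, inv_inv, mul_inv_cancel_left] at this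

theorem coverA {r c : κ → ℤ} (hr : D.IsRoot r) (h1 : r ⬝ᵥ r = 2) (h2 : c ⬝ᵥ c = 2) (h3 : r ⬝ᵥ c = -1) :
    D.US (ray (r + c)) ≤ ⁅D.US (ray r), D.US (ray c)⁆ := by
  have h4 : c ⬝ᵥ r = -1 := by rw [dotProduct_comm, h3]
  have e : reflH r c = r + c := by simp [reflH_apply, h1, h4, add_comm]
  have := cover hr (dotH (c - r)) (by simp [h2, h3]) (by simp [h1, h4]) (c := c)
    (by simp [e, dotProduct_add, h1, h2, h3, h4]) (E := ⊥) (fun _ h => h.elim) (by
      rintro i j ⟨s, t, hs, ht, k⟩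
      have := gram k
      rw [h1, h2, h3] at this
      obtain rfl : s = 1 := by nlinarith [sq_nonneg (s - 2 * t)]
      obtain rfl : t = 1 := by nlinarith
      exact .inl ⟨1, one_pos, by simp [k, e]⟩) (by
      rintro i j ⟨s, t, hs, ht, k⟩
      have := gram k
      simp only [neg_dotProduct, dotProduct_neg, h1, h2, h3] at this
      nlinarith)
  rw [e] at this
  exact this.trans (sup_le le_rfl fun g hg => D.eq_one_of_supp_empty hg ▸ one_mem _)

theorem coverB {a b : κ → ℤ} (ha : D.IsRoot a) (hb : D.IsRoot b) (h1 : a ⬝ᵥ a = 2) (h2 : b ⬝ᵥ b = 1)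
    (h3 : a ⬝ᵥ b = -1) :
    D.US (ray (a + b)) ≤ ⁅D.US (ray a), D.US (ray b)⁆ ⊔ D.US (ray (a + b + b)) ∧
    D.US (ray (a + b + b)) ≤ ⁅D.US (ray a), D.US (ray b)⁆ ⊔ D.US (ray (a + b)) := by
  have h4 : b ⬝ᵥ a = -1 := by rw [dotProduct_comm, h3]
  have e1 : reflH a b = a + b := by simp [reflH_apply, h1, h4, add_comm]
  have e2 : reflH b a = a + b + b := by
    rw [reflH_apply, h2, h3]
    module
  have key : ∀ i j (s t : ℤ), 0 < s → 0 < t → D.wt i - D.wt j = s • a + t • b →
      D.wt i - D.wt j ∈ ray (a + b) ∨ D.wt i - D.wt j ∈ ray (a + b + b) := fun i j s t hs ht k => by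
    have := gram k
    rw [h1, h2, h3] at this
    have s2 : s ≤ 2 := by nlinarith [sq_nonneg (s - t)]
    have t2 : t ≤ 2 := by nlinarith [sq_nonneg (2 * s - t)]
    interval_cases s <;> interval_cases t
    · exact .inl ⟨1, one_pos, by rw [k]; module⟩
    · exact .inr ⟨1, one_pos, by rw [k]; module⟩
    · omega
    · exact .inl ⟨2, two_pos, by rw [k]; module⟩
  constructor
  · have := cover ha (dotH b) (c := b) (by simp [h2]) (by simp [h4])
      (by simp [e1, dotProduct_add, h2, h4]) (E := ray (a + b + b)) (by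
        rintro _ ⟨t, ht, rfl⟩
        rw [map_zsmul]
        simpa [dotProduct_add, h2, h4]) (by
        rintro i j ⟨s, t, hs, ht, k⟩
        exact e1 ▸ key i j s t hs ht k) (by
        rintro i j ⟨s, t, hs, ht, k⟩
        have := gram k
        simp only [neg_dotProduct, dotProduct_neg, h1, h2, h3] at this
        nlinarith)
    rwa [e1] at this
  · have := cover hb (dotH a) (c := a) (by simp [h1]) (by simp [h3])
      (by simp [e2, dotProduct_add, h1, h3]) (E := ray (a + b)) (by
        rintro _ ⟨t, ht, rfl⟩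
        rw [map_zsmul]
        simpa [dotProduct_add, h1, h3]) (by
        rintro i j ⟨s, t, hs, ht, k⟩
        exact e2 ▸ (key i j t s ht hs (k.trans (add_comm _ _))).symm) (by
        rintro i j ⟨s, t, hs, ht, k⟩
        have := gram k
        simp only [neg_dotProduct, dotProduct_neg, h1, h2, h4] at this
        nlinarith)
    rwa [e2, Subgroup.commutator_comm] at this

end gen

theorem jobCD : H9.CK.JobCD := by
  intro F J G _ _ _ _ _ m D P δ hwt hup hP h0 h1 hl r hr hs
  have hδ : δ = 0 ∨ δ = 1 := (em D.short).imp h0 h1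
  have hU : ∀ v, 0 < htFin m δ v → D.US (ray v) ≤ P.grd.U := fun v hv => by
    rw [P.grd_U, hP]
    refine D.US_mono ?_
    rintro _ ⟨t, ht, rfl⟩
    exact (mul_pos ht hv).trans_eq (map_zsmul _ t v).symm
  have sub : ∀ {k l : Fin m}, k < l → D.US (ray (Pi.single k 1 - Pi.single l 1)) ≤ P.grd.U :=
    fun h => hU _ (by simp only [map_sub, htFin_single]; omega)
  have add : ∀ {k l : Fin m}, k ≠ l → D.US (ray (Pi.single k 1 + Pi.single l 1)) ≤ P.grd.U :=
    fun {k l} h => hU _ (by
      have := Fin.val_ne_of_ne h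
      simp only [map_add, htFin_single]; omega)
  have B : D.short → ∀ {k l : Fin m}, k < l →
      (D.US (ray (Pi.single k 1)) ≤ ⁅P.grd.U, P.grd.U⁆ ↔
        D.US (ray (Pi.single k 1 + Pi.single l 1)) ≤ ⁅P.grd.U, P.grd.U⁆) := fun h {k l} c => by
    have := coverB (isRoot_sub hup c.ne) (isRoot_single hup h l) (by simp [c.ne, c.ne'])
      (by simp) (by simp [c.ne])
    rw [sub_add_cancel] at this
    have k := commutator_mono (sub c) (hU (Pi.single l 1) (by rw [htFin_single, h0 h]; omega))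
    exact ⟨fun a => this.2.trans (sup_le k a), fun a => this.1.trans (sup_le k a)⟩
  have A : ∀ {k j l : Fin m}, k < j → j ≠ l → k ≠ l →
      D.US (ray (Pi.single k 1 + Pi.single l 1)) ≤ ⁅P.grd.U, P.grd.U⁆ := fun {k j l} a b c => by
    have := coverA (D := D) (c := Pi.single j 1 + Pi.single l 1) (isRoot_sub hup a.ne)
      (by simp [a.ne, a.ne']) (by simp [b, b.symm]) (by simp [a.ne, b, c])
    rw [← add_assoc, sub_add_cancel] at this
    exact this.trans (commutator_mono (sub a) (add b))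
  have C : ∀ {k l : Fin m}, k < l → (D.short ∨ htFin m δ (Pi.single k 1 + Pi.single l 1) ≠ 1) →
      D.US (ray (Pi.single k 1 + Pi.single l 1)) ≤ ⁅P.grd.U, P.grd.U⁆ := fun {k l} a b => by
    by_cases c : k.val + 1 = l.val
    · by_cases d : l.val + 1 = m
      · have h : D.short := by
          by_contra h
          refine b.elim h fun b => b ?_
          simp only [map_add, htFin_single, h1 h]
          omega
        exact (hl h k l c d).elim id (B h a).1
      · rw [add_comm]
        exact A (j := ⟨l + 1, by omega⟩) (Nat.lt_succ_self _) (Fin.ne_of_val_ne (by simp; omega)) a.ne'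
    · exact A (j := ⟨k + 1, by omega⟩) (Nat.lt_succ_self _) (Fin.ne_of_val_ne c) a.ne
  obtain ⟨r, hr'⟩ := r
  have p1 : 0 < htFin m δ r := hP ▸ hr
  have p2 : htFin m δ r ≠ 1 := fun e => hs ⟨⟨r, hr'⟩, (hP ▸ e :)⟩ rfl
  change D.US (ray r) ≤ _
  rcases hr'.std_cases hwt with ⟨k, l, h, rfl⟩ | ⟨-, k, l, h, rfl | rfl⟩ | ⟨h, k, rfl | rfl⟩
  · simp only [map_sub, htFin_single] at p1 p2
    obtain ⟨j, a, b⟩ : ∃ j, k < j ∧ j < l :=
      ⟨⟨k + 1, by omega⟩, Nat.lt_succ_self _, by rw [Fin.lt_def]; simp only; omega⟩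
    have := coverA (D := D) (c := Pi.single j 1 - Pi.single l 1) (isRoot_sub hup a.ne)
      (by simp [a.ne, a.ne']) (by simp [b.ne, b.ne']) (by simp [a.ne, b.ne, h])
    rw [sub_add_sub_cancel] at this
    exact this.trans (commutator_mono (sub a) (sub b))
  · rcases lt_or_gt_of_ne h with c | c
    · exact C c (.inr p2)
    · rw [add_comm] at p2 ⊢
      exact C c (.inr p2)
  · have := Fin.val_ne_of_ne h
    simp only [map_neg, map_add, htFin_single] at p1
    omega
  · rw [htFin_single, h0 h] at p2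
    have c : k < (⟨m - 1, by omega⟩ : Fin m) := by rw [Fin.lt_def]; simp only; omega
    exact (B h c).2 (C c (.inl h))
  · rw [map_neg, htFin_single, h0 h] at p1
    omega

end H32.CKD
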