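/- CKS (S2193): the slot `Fou` of blueprints/CKL.md. -/
import Cfsg.Agent.H56.CkSpec

set_option autoImplicit false
set_option linter.unusedSectionVars false

namespace H32.CKF
open Module MulAction H54 H26.MS Finset Matrix

variable {F V Ω : Type} [Field F] [Fintype F] [AddCommGroup V] [Module F V] [FiniteDimensional F V]
  {B : LinearMap.BilinForm F V} [MulAction (Isom B) Ω] [Fintype Ω] [Fintype V] [DecidableEq V]
  [DecidableEq Ω] (hq : Fintype.card F = 2) (hA : B.IsAlt) (hB : B.Nondegenerate)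

/-- The Fourier matrix. -/
noncomputable def Ph (B : LinearMap.BilinForm F V) : Matrix V V ℚ :=
  Matrix.of fun x y => (sg (B x y) : ℚ)

/-- Invariant matrices. -/
def Inv (B : LinearMap.BilinForm F V) [MulAction (Isom B) Ω] (l : Matrix Ω V ℚ) : Prop :=
  ∀ (g : Isom B) w x, l (g • w) (g.1 x) = l w x

theorem Inv.mul {l : Matrix Ω V ℚ} (h : Inv B l) : Inv B (l * Ph B) := fun g w x => by
  simp only [mul_apply, Ph, of_apply]
  rw [← Equiv.sum_comp g.1.toEquiv]
  exact sum_congr rfl fun y _ => by rw [LinearEquiv.coe_toEquiv, h, g.2]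

include hq hA hB

theorem B_comm (x y : V) : B x y = B y x := by
  rw [← hA.neg_eq x y]
  linear_combination (B x y) * two_eq hq

theorem Ph_sq : Ph B * Ph B = (Fintype.card V : ℚ) • (1 : Matrix V V ℚ) := by
  ext x z
  simp only [mul_apply, Ph, of_apply, Matrix.smul_apply, one_apply, smul_eq_mul]
  rw [sum_congr rfl (g := fun y => (sg (B (x - z) y) : ℚ)) fun y _ => by
    rw [← Int.cast_mul, ← sg_add hq, map_sub, LinearMap.sub_apply, sub_eq_add_neg, hA.neg_eq]]
  split_ifs with c
  · simp [c, sg]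
  · obtain ⟨t, ht⟩ : ∃ t, B (x - z) t ≠ 0 := by
      by_contra k
      push Not at k
      exact c (sub_eq_zero.1 (hB.1 _ k))
    have h2 := Equiv.sum_comp (Equiv.addLeft t) fun y => (sg (B (x - z) y) : ℚ)
    simp only [Equiv.coe_addLeft, map_add, sg_add hq, Int.cast_mul, ← mul_sum] at h2
    rw [sg, if_neg ht] at h2
    push_cast at h2
    linarith

theorem core (L : H56.CK.LM (Isom B) Ω) {l : Matrix Ω V ℚ} {e : ℚ} (hl : l ≠ 0) (hi : Inv B l)
    (col : ∀ x, ∑ w, l w x = 0) (eig : l * Ph B = e • l) (he : e ^ 2 = Fintype.card V)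
    (h4 : 4 < e ^ 2) : 2 * (Fintype.card Ω : ℚ) = e ^ 2 + e := by
  classical
  obtain ⟨p, r, hpr⟩ := L.nt
  have tr : ∀ w, ∃ g : Isom B, g • p = w := fun w => by
    haveI := L.nt
    obtain ⟨t, ht⟩ := exists_ne w
    exact (L.two p r w t hpr ht.symm).imp fun _ h => h.1
  have n0 : (Fintype.card Ω : ℚ) ≠ 0 := by
    haveI := L.nt
    exact_mod_cast Fintype.card_ne_zero
  have l0 : ∀ w, l w 0 = 0 := by
    have k : ∀ w, l w 0 = l p 0 := fun w => by
      obtain ⟨g, rfl⟩ := tr w
      rw [← hi g p 0, map_zero]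
    have := col 0
    rw [sum_congr rfl fun w _ => k w, sum_const, card_univ, nsmul_eq_mul] at this
    exact fun w => (k w).trans ((mul_eq_zero.1 this).resolve_left n0)
  have Ai : ∀ (g : Isom B) w t, (l * lᵀ) (g • w) (g • t) = (l * lᵀ) w t := fun g w t => by
    simp only [mul_apply, transpose_apply]
    rw [← Equiv.sum_comp g.1.toEquiv]
    exact sum_congr rfl fun y _ => by rw [LinearEquiv.coe_toEquiv, hi, hi]
  have Si : ∀ (g : Isom B) x y, (lᵀ * l) (g.1 x) (g.1 y) = (lᵀ * l) x y := fun g x y => by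
    simp only [mul_apply, transpose_apply]
    rw [← Equiv.sum_comp (MulAction.toPerm g)]
    exact sum_congr rfl fun y _ => by rw [toPerm_apply, hi, hi]
  set a := (l * lᵀ) p p with ha
  set b := (l * lᵀ) p r with hb
  have hAm : l * lᵀ = (a - b) • (1 : Matrix Ω Ω ℚ) + Matrix.of fun _ _ => b := by
    ext w t
    simp only [Matrix.add_apply, Matrix.smul_apply, one_apply, of_apply, smul_eq_mul]
    split_ifs with c
    · obtain ⟨g, rfl⟩ := tr w
      rw [← c, Ai]
      ring
    · obtain ⟨g, rfl, rfl⟩ := L.two p r w t hpr c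
      rw [Ai]
      ring
  have J : (Matrix.of fun (_ _ : Ω) => b) * l = 0 := by
    ext w x
    simp [mul_apply, ← mul_sum, col]
  have ab : a - b + Fintype.card Ω * b = 0 := by
    have : ∑ t, (l * lᵀ) p t = 0 := by
      simp only [mul_apply, transpose_apply]
      rw [sum_comm]
      simp [← mul_sum, col]
    simpa [hAm, one_apply, sum_add_distrib] using this
  have SS : lᵀ * l * (lᵀ * l) = (a - b) • (lᵀ * l) := by
    rw [Matrix.mul_assoc, ← Matrix.mul_assoc l, hAm, Matrix.add_mul, J]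
    simp
  have SP : lᵀ * l * Ph B = e • (lᵀ * l) := by rw [Matrix.mul_assoc, eig, Matrix.mul_smul]
  obtain ⟨x, hx⟩ : ∃ x : V, x ≠ 0 := by
    have : 1 < Fintype.card V := by exact_mod_cast (by linarith : (1 : ℚ) < Fintype.card V)
    haveI := Fintype.one_lt_card_iff_nontrivial.1 this
    exact exists_ne 0
  set T := (lᵀ * l) x with hT
  have T0 : T 0 = 0 := by simp [hT, mul_apply, l0]
  have dg : ∀ y, (lᵀ * l) y y = if y = 0 then 0 else T x := fun y => by
    split_ifs with c
    · simp [c, mul_apply, l0]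
    · obtain ⟨g, hg, rfl⟩ := exists_map hA hB hx c
      exact Si ⟨g, hg⟩ x x
  have t1 : (Fintype.card V - 1) * T x = Fintype.card Ω * a := by
    have := trace_mul_comm lᵀ l
    rw [hAm, trace, trace, sum_congr rfl (g := fun y => T x - if y = 0 then T x else 0)
      fun y _ => by rw [diag_apply, dg]; split_ifs <;> simp] at this
    simp at this
    linarith
  have a0 : T x ≠ 0 := fun c => hl (by
    ext w y
    have : ∑ w, l w y * l w y = 0 := (dg y).trans (by rw [c, ite_self])
    rw [sum_eq_zero_iff_of_nonneg fun _ _ => mul_self_nonneg _] at this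
    exact mul_self_eq_zero.1 (this w (mem_univ w)))
  obtain ⟨c, hc⟩ : ∃ c : F → ℚ, ∀ y, y ≠ 0 → y ≠ x → T y = c (B x y) := by
    have sp : ∀ {y}, y ≠ 0 → y ≠ x → y ∉ F ∙ x := fun {y} h1 h2 h => by
      obtain ⟨t, rfl⟩ := Submodule.mem_span_singleton.1 h
      rcases zero_or_one hq t with rfl | rfl <;> simp at h1 h2
    refine ⟨fun t => if h : ∃ y, y ≠ 0 ∧ y ≠ x ∧ B x y = t then T h.choose else 0, fun y h1 h2 => ?_⟩
    have h : ∃ z, z ≠ 0 ∧ z ≠ x ∧ B x z = B x y := ⟨y, h1, h2, rfl⟩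
    obtain ⟨k1, k2, k3⟩ := h.choose_spec
    obtain ⟨g, hg, k⟩ := exists_Cz hA hB (sp k1 k2) (sp h1 h2) k3
    simp only [dif_pos h]
    rw [hT, ← Si ⟨g, hg.1⟩ x h.choose, k]
    exact congrArg (fun t => (lᵀ * l) t y) hg.2.symm
  obtain ⟨be, ga, al, e0, e1, e2⟩ : ∃ be ga al : ℚ, c 0 = ga + be ∧ c 1 = ga - be ∧
      T x = al + be + ga := ⟨(c 0 - c 1) / 2, (c 0 + c 1) / 2, T x - c 0, by ring, by ring, by ring⟩
  have hT' : ∀ y, T y = al * (1 : Matrix V V ℚ) x y + be * Ph B x y + ga * Ph B 0 y -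
      (be + ga) * (1 : Matrix V V ℚ) 0 y := fun y => by
    by_cases h1 : y = 0
    · simp [h1, T0, one_apply, hx, Ph, sg]
    by_cases h2 : y = x
    · simp [h2, e2, one_apply, hx.symm, Ph, sg, hA.self_eq_zero]
    rw [hc y h1 h2]
    rcases zero_or_one hq (B x y) with k | k <;>
      simp [k, e0, e1, one_apply, Ne.symm h1, Ne.symm h2, Ph, sg] <;> ring
  have mulT : ∀ (M : Matrix V V ℚ) z, ∑ y, T y * M y z =
      al * M x z + be * (Ph B * M) x z + ga * (Ph B * M) 0 z - (be + ga) * M 0 z := fun M z => by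
    simp only [hT', add_mul, sub_mul, sum_sub_distrib, sum_add_distrib, mul_assoc, ← mul_sum,
      ← mul_apply, Matrix.one_mul]
  have q0 := (mulT (Ph B) 0).symm.trans (congrFun (congrFun SP x) 0)
  have q1 := (mulT (Ph B) x).symm.trans (congrFun (congrFun SP x) x)
  have q2 := (mulT (lᵀ * l) x).symm.trans (congrFun (congrFun SS x) x)
  have PS : Ph B * (lᵀ * l) = e • (lᵀ * l) := by
    have := congrArg transpose SP
    rwa [transpose_mul, transpose_smul, transpose_mul, transpose_transpose,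
      show (Ph B)ᵀ = Ph B from Matrix.ext fun u v => by simp [Ph, B_comm hq hA hB u v]] at this
  have z0 : (lᵀ * l) 0 x = 0 := by simp [mul_apply, l0]
  rw [Ph_sq hq hA hB, ← he] at q0 q1
  rw [PS] at q2
  simp only [Matrix.smul_apply, smul_eq_mul, ← hT, T0, z0, one_apply, hx, hx.symm, if_true,
    if_false, Ph, of_apply, map_zero, LinearMap.zero_apply, hA.self_eq_zero, sg, Int.cast_one] at q0 q1 q2
  rw [← he] at t1
  have n2 : e - 2 ≠ 0 := fun k => by rw [sub_eq_zero.1 k] at h4; norm_num at h4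
  have n1 : e + 1 ≠ 0 := fun k => by rw [eq_neg_of_add_eq_zero_left k] at h4; norm_num at h4
  have n3 : e ≠ 0 := fun k => by rw [k] at h4; norm_num at h4
  have r1 : be = -ga * (e + 1) := mul_left_cancel₀ n2 (mul_left_cancel₀ n3 (by
    linear_combination q1 + e * e2 + (e - 1) * q0))
  have r2 : al = e * be := by linear_combination q0 - (e - 1) * r1
  have r3 : a - b = 2 * e * be := mul_left_cancel₀ a0 (by linear_combination - q2 + T x * r2)
  have r4 : T x = -ga * e * (e + 2) := by linear_combination e2 + r2 + (e + 1) * r1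
  have g0 : ga ≠ 0 := fun k => a0 (by simp [r4, k])
  refine mul_left_cancel₀ n1 (mul_left_cancel₀ n3 (mul_left_cancel₀ g0 ?_))
  linear_combination (exp := 1) t1 + ab - (e ^ 2 - 1) * r4 + (Fintype.card Ω - 1) * r3 +
    (Fintype.card Ω - 1) * 2 * e * r1

omit hq hA hB in
theorem jobFou : H56.CK.JobFou := by
  intro F V Ω _ _ _ _ _ B _ _ D hq hA hB hV hD L a v w hv hw h
  classical
  haveI : Finite V := Nat.finite_of_card_ne_zero (by rw [hV]; positivity)
  haveI := Fintype.ofFinite V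
  haveI := Fintype.ofFinite Ω
  rw [Nat.card_eq_fintype_card] at hV ⊢
  let l0 : Matrix Ω V ℚ := fun t x => if ∃ g : Isom B, g • a = t ∧ g.1 v = x then 1 else 0
  have i0 : Inv B l0 := fun g t x => if_congr
    ⟨fun ⟨k, k1, k2⟩ => ⟨g⁻¹ * k, by rw [mul_smul, k1, inv_smul_smul], by simp [k2]⟩,
      fun ⟨k, k1, k2⟩ => ⟨g * k, by rw [mul_smul, k1], by simp [k2]⟩⟩ rfl rfl
  let l : Matrix Ω V ℚ := fun t x => Fintype.card Ω * l0 t x - ∑ t, l0 t x
  have i1 : Inv B l := fun g t x => by
    simp only [l]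
    rw [i0, ← Equiv.sum_comp (MulAction.toPerm g)]
    exact congrArg _ (sum_congr rfl fun y _ => i0 g y x)
  have c1 : ∀ x, ∑ t, l t x = 0 := fun x => by simp [l, ← mul_sum]
  have n1 : l ≠ 0 := fun k => by
    obtain ⟨g, hg, e⟩ := exists_map hA hB hv hw
    have k1 : l ((⟨g, hg⟩ : Isom B) • a) w = l a w := by rw [k]; rfl
    have k2 : l0 ((⟨g, hg⟩ : Isom B) • a) w = 1 := if_pos ⟨_, rfl, e⟩
    have k3 : l0 a w = 0 := if_neg fun ⟨g, g1, g2⟩ => h g g1 g2
    haveI := L.nt
    simp [l, k2, k3] at k1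
  have D2 : (2 : ℚ) < D := by exact_mod_cast hD
  have key : ∀ e : ℚ, e ^ 2 = D ^ 2 → l * Ph B + e • l ≠ 0 →
      2 * (Fintype.card Ω : ℚ) = e ^ 2 + e := fun e he hl => by
    have he' : e ^ 2 = Fintype.card V := by rw [he, hV, Nat.cast_pow]
    refine core hq hA hB L hl (fun g t x => ?_) (fun x => ?_) ?_ he' (by nlinarith)
    · simp only [Matrix.add_apply, Matrix.smul_apply, i1.mul g, i1 g]
    · simp only [Matrix.add_apply, Matrix.smul_apply, sum_add_distrib, smul_eq_mul, ← mul_sum, c1,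
        mul_apply]
      rw [sum_comm]
      simp [← sum_mul, c1]
    · rw [Matrix.add_mul, Matrix.mul_assoc, Ph_sq hq hA hB, ← he', smul_add, smul_smul, add_comm]
      simp [sq]
  by_cases c : l * Ph B + (D : ℚ) • l = 0
  · have := key (-D) (by ring) fun k => n1 (by
      have : (2 * D : ℚ) • l = 0 := by linear_combination (norm := module) c - k
      exact (smul_eq_zero.1 this).resolve_left (by linarith))
    exact .inr (by exact_mod_cast (by linarith : 2 * (Fintype.card Ω : ℚ) + D = D ^ 2))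
  · exact .inl (by exact_mod_cast key D rfl c)

end H32.CKF
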