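/- CKS (S2193): the assembly. -/
import Cfsg.Agent.H32.CKSpec
import Cfsg.Agent.H54.LieAut

set_option autoImplicit false

namespace H32.CK
open Subgroup Cfsg

structure Jobs : Prop where
  P : JobP
  A : JobA
  L2 : JobL2
  L : JobL
  Sp : JobSp
  U3 : JobU3
  U : JobU
  Oo : JobOo
  Op : JobOp
  Om : JobOm
  G2 : JobG2
  F4 : JobF4
  E6 : JobE6
  E7 : JobE7
  E8 : JobE8
  tE6 : Job2E6
  tD4 : Job3D4
  Sz : JobSz
  tF4 : Job2F4
  Ree : JobRee
  XSp : JobXSp
  XF4 : JobXF4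
  XG2 : JobXG2

theorem lie_nc {p : ℕ} [Fact p.Prime] {K : Type*} [Group K] [Finite K] (h : IsLieTypeChar p K) :
    ¬ IsMulCommutative K := fun hc => by
  obtain ⟨S⟩ : Nonempty (Sylow p K) := inferInstance
  obtain ⟨L, ⟨i⟩, -⟩ := H54.exists_lieS_sylow h S
  refine L.T.n_not_mem_B i (L.normalizer_U ▸ mem_normalizer_iff.2 fun x => ?_)
  rw [hc.is_comm.comm (L.T.n i), mul_inv_cancel_right]

theorem char_of_card {F : Type} [Field F] [Fintype F] {p : ℕ} (hp : p.Prime)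
    (h : Fintype.card F = p) : CharP F p := by
  have := (CharP.cast_eq_zero_iff F (ringChar F) p).1 (h ▸ FiniteField.cast_card_eq_zero F)
  rw [← (Nat.prime_dvd_prime_iff_eq (CharP.char_is_prime F (ringChar F)) hp).1 this]
  infer_instance

theorem main0 (J : Jobs) {p : ℕ} [Fact p.Prime] {G Ω : Type} [Group G] [Finite G] [MulAction G Ω]
    [Finite Ω] (hG : IsLieTypeChar p G) (h : Act G Ω) : Out G (Nat.card Ω) := by
  by_cases hX : Exc G
  · obtain ⟨F, _, iF, ⟨c, m, hm, e⟩ | ⟨c, e⟩ | ⟨c, e⟩⟩ := hX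
    · haveI := char_of_card Nat.prime_two c
      by_cases d : 2 ∣ Nat.card Ω
      · exact J.XSp F m c hm G Ω e h d
      · exact J.P 2 G Ω (.inr (.inl ⟨F, _, iF, this, m, by omega, by omega, e⟩)) h d
    · haveI := char_of_card Nat.prime_two c
      by_cases d : 2 ∣ Nat.card Ω
      · exact J.XF4 F c G Ω e h d
      · exact J.P 2 G Ω (by
          iterate 6 right
          exact .inl ⟨F, _, iF, this, .inr (.inl e)⟩) h d
    · haveI := char_of_card Nat.prime_three c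
      haveI := Fact.mk Nat.prime_three
      by_cases d : 3 ∣ Nat.card Ω
      · exact J.XG2 F c G Ω e h d
      · exact J.P 3 G Ω (by
          iterate 6 right
          exact .inl ⟨F, _, iF, ‹_›, .inl ⟨c.ge, e⟩⟩) h d
  by_cases d : p ∣ Nat.card Ω
  swap
  · exact J.P p G Ω hG h d
  have b := J.A p G Ω hG hX h d
  rcases hG with ⟨F, _, _, _, n, hn, c, e⟩ | ⟨F, _, _, _, n, hn, c, e⟩ |
    ⟨F, _, _, _, n, q, hF, hn, c, e⟩ | ⟨F, _, _, _, n, hn, c, e⟩ | ⟨F, _, _, _, n, hn, e⟩ |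
    ⟨F, _, _, _, n, x, y, hn, c, e⟩ | ⟨F, _, _, _, ⟨c, e⟩ | e | e | e | e⟩ |
    ⟨F, _, _, _, q, hq, ⟨c, e⟩ | ⟨c, e⟩⟩ |
    ⟨rfl, F, _, _, m, hm, hF, e⟩ | ⟨rfl, F, _, _, m, hm, hF, e⟩ | ⟨rfl, F, _, _, m, hm, hF, e⟩
  · rcases hn.eq_or_lt with rfl | hn
    · exact J.L2 p F (c rfl) G Ω e b
    · exact J.L p F n hn G Ω e b
  · refine J.Sp p F n hn ?_ G Ω e b
    by_contra k
    have := Fintype.one_lt_card (α := F)
    exact hX ⟨F, _, _, .inl ⟨by omega, n, by omega, e⟩⟩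
  · rcases hn.eq_or_lt with rfl | hn
    · exact J.U3 p F q hF (fun k => c ⟨rfl, k⟩) G Ω e b
    · exact J.U p F n q hF hn G Ω e b
  · exact J.Oo p F n hn c G Ω e b
  · exact J.Op p F n hn G Ω e b
  · exact J.Om p F n x y hn c G Ω e b
  · refine J.G2 p F ?_ G Ω e b
    by_contra k
    exact hX ⟨F, _, _, .inr (.inr ⟨by omega, e⟩)⟩
  · refine J.F4 p F ?_ G Ω e b
    by_contra k
    have := Fintype.one_lt_card (α := F)
    exact hX ⟨F, _, _, .inr (.inl ⟨by omega, e⟩)⟩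
  · exact J.E6 p F G Ω e b
  · exact J.E7 p F G Ω e b
  · exact J.E8 p F G Ω e b
  · exact J.tE6 p F q hq c G Ω e b
  · exact J.tD4 p F q hq c G Ω e b
  · exact J.Sz F m hm hF G Ω e b
  · exact J.tF4 F m hm hF G Ω e b
  · exact J.Ree F m hm hF G Ω e b

theorem main (J : Jobs) {G Ω : Type*} [Group G] [Finite G] [MulAction G Ω] [FaithfulSMul G Ω]
    [Fintype Ω] (p : ℕ) [Fact p.Prime] (hG : IsLieTypeChar p G)
    (h2 : MulAction.IsMultiplyPretransitive G Ω 2) : Out G (Fintype.card Ω) := by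
  obtain ⟨G0, _, _, ⟨e⟩⟩ := Finite.exists_type_univ_nonempty_mulEquiv.{_, 0} G
  have key : ∀ (X : Type) [Mul X], Nonempty (G ≃* X) ↔ Nonempty (G0 ≃* X) := fun X _ =>
    ⟨fun ⟨f⟩ => ⟨e.symm.trans f⟩, fun ⟨f⟩ => ⟨e.trans f⟩⟩
  have h0 : IsLieTypeChar p G0 := by
    simp only [IsLieTypeChar, IsPSLChar, IsPSpChar, IsPSUChar, IsPOmegaOddChar, IsPOmegaPlusChar,
      IsPOmegaMinusChar, IsExceptionalChevChar, IsTwistedE6D4Char, Lie.IsoSuzuki, Lie.Iso2F4,
      Lie.IsoRee, key] at hG ⊢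
    exact hG
  let f := Fintype.equivFin Ω
  letI : MulAction G0 (Fin (Fintype.card Ω)) :=
    { smul := fun g a => f (e.symm g • f.symm a)
      one_smul := fun a => by
        change f (e.symm 1 • f.symm a) = a
        simp
      mul_smul := fun g k a => by
        change f (e.symm (g * k) • f.symm a) = f (e.symm g • f.symm (f (e.symm k • f.symm a)))
        simp [mul_smul] }
  have sm : ∀ (g : G0) (a : Fin (Fintype.card Ω)), g • a = f (e.symm g • f.symm a) := fun _ _ => rfl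
  have := main0 J h0 (Ω := Fin (Fintype.card Ω)) ⟨⟨fun {g k} c => e.symm.injective
    (eq_of_smul_eq_smul (α := Ω) fun a => by simpa [sm] using c (f a))⟩,
    MulAction.is_two_pretransitive_iff.2 fun {a b c d} h1 h3 => by
      obtain ⟨g, g1, g2⟩ := MulAction.is_two_pretransitive_iff.1 h2 (f.symm.injective.ne h1)
        (f.symm.injective.ne h3)
      exact ⟨e g, by simp [sm, g1], by simp [sm, g2]⟩,
    H54.isSimpleGroup_of_lieType h0, lie_nc h0⟩
  rw [Nat.card_fin] at this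
  simp only [Out, key] at this ⊢
  exact this

end H32.CK
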