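/- CKS (S2193): two counting lemmas for the minimal degree of `F₄(2)`. -/
import Cfsg.Agent.H32.CKKit2

set_option autoImplicit false

namespace H32.CK
open Subgroup MulAction
open scoped commutatorElement

theorem ab_top {H : Type*} [Group H] [Finite H] {Z V A : Subgroup H} (hc : V ≤ center H)
    (hz : Z ≤ center H) (hk : ∀ x y : H, ⁅x, y⁆ ∈ Z) (hs : ∀ x ∉ V, ∀ z ∈ Z, ∃ y, ⁅x, y⁆ = z)
    (hV : V ≤ A) (hA : ∀ a ∈ A, ∀ b ∈ A, a * b = b * a) (h1 : 1 < Nat.card Z) :
    Nat.card A ^ 2 ≤ Nat.card H * Nat.card V := by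
  classical
  haveI := Fintype.ofFinite H
  let f : H → H →* H := fun x => MonoidHom.mk' (fun y => ⁅x, y⁆) fun y z => by
    have := mem_center_iff.1 (hz (hk x z)) y
    rw [← mul_inv_eq_iff_eq_mul] at this
    rw [← this]
    simp [commutatorElement_def, mul_assoc]
  have ck : ∀ {A : Type _} [Group A] [Fintype A] (g : A →* H),
      (Finset.univ.filter fun a => g a = 1).card * Nat.card g.range = Nat.card A := fun g => by
    rw [← index_ker, ← g.ker.card_mul_index, Nat.card_eq_fintype_card (α := g.ker),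
      Fintype.card_subtype]
    simp only [MonoidHom.mem_ker]
  obtain ⟨t, ht⟩ := Nat.exists_eq_add_of_lt h1
  have a : ∀ y : A, (Finset.univ.filter fun x => f y x = 1).card * Nat.card Z =
      Nat.card H + if y ∈ V.subgroupOf A then Nat.card H * (t + 1) else 0 := fun y => by
    split_ifs with c
    · rw [Finset.filter_true_of_mem (p := fun x => f y x = 1) fun x _ =>
        commutatorElement_eq_one_iff_mul_comm.2 (mem_center_iff.1 (hc c) x).symm, Finset.card_univ, ht,
        Nat.card_eq_fintype_card]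
      ring
    · have : (f y).range = Z := le_antisymm (by rintro _ ⟨x, rfl⟩; exact hk _ _) (hs y c)
      rw [← this, ck, add_zero]
  have b : ∀ x : H, (Nat.card A + if x ∈ A then Nat.card A * (t + 1) else 0) ≤
      (Finset.univ.filter fun y : A => f y x = 1).card * Nat.card Z := fun x => by
    split_ifs with c
    · rw [Finset.filter_true_of_mem (p := fun y : A => f y x = 1) fun y _ =>
        commutatorElement_eq_one_iff_mul_comm.2 (hA y y.2 x c), Finset.card_univ, ht,
        Nat.card_eq_fintype_card]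
      exact le_of_eq (by ring)
    · rw [add_zero, ← ck ((f x).comp A.subtype)]
      refine Nat.mul_le_mul (le_of_eq (congrArg _ (Finset.filter_congr fun y _ => ?_)))
        (card_le_of_le (by rintro _ ⟨x, rfl⟩; exact hk _ _))
      exact commutatorElement_eq_one_iff_mul_comm.trans
        (eq_comm.trans commutatorElement_eq_one_iff_mul_comm.symm)
  have s := Finset.sum_le_sum (s := Finset.univ) fun x _ => b x
  have e : ∑ x : H, (Finset.univ.filter fun y : A => f y x = 1).card =
      ∑ y : A, (Finset.univ.filter fun x => f y x = 1).card := by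
    simp only [Finset.card_filter]
    exact Finset.sum_comm
  rw [← Finset.sum_mul, e, Finset.sum_mul, Finset.sum_congr rfl fun y _ => a y,
    Finset.sum_add_distrib, Finset.sum_add_distrib, ← Finset.sum_filter, ← Finset.sum_filter] at s
  simp only [Finset.sum_const, Finset.card_univ, smul_eq_mul, ← Fintype.card_subtype,
    ← Nat.card_eq_fintype_card, Nat.card_congr (subgroupOfEquivOfLe hV).toEquiv] at s
  exact Nat.le_of_mul_le_mul_right (c := t + 1) (by nlinarith) t.succ_pos

variable {G Ω : Type} [Group G] [Finite G] [MulAction G Ω] [Finite Ω]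

/-- `Q` of class two with centre `V` and `[x, Q] = Z` off `V`: abelian subgroups are small. -/
theorem ab_bound {Q Z V A : Subgroup G} (hZ : Z ≤ V) (hc : ∀ z ∈ V, ∀ x ∈ Q, x * z = z * x)
    (hk : ∀ x ∈ Q, ∀ y ∈ Q, ⁅x, y⁆ ∈ Z) (hs : ∀ x ∈ Q, x ∉ V → ∀ z ∈ Z, ∃ y ∈ Q, ⁅x, y⁆ = z)
    (hV : V ≤ A) (hQ : A ≤ Q) (hA : ∀ a ∈ A, ∀ b ∈ A, a * b = b * a) (h1 : 1 < Nat.card Z) :
    Nat.card A ^ 2 ≤ Nat.card Q * Nat.card V := by
  have c : ∀ {X : Subgroup G}, X ≤ Q → Nat.card (X.subgroupOf Q) = Nat.card X := fun h =>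
    Nat.card_congr (subgroupOfEquivOfLe h).toEquiv
  rw [← c hQ, ← c (hV.trans hQ)]
  refine ab_top (Z := Z.subgroupOf Q) (fun z hz => mem_center_iff.2 fun x => Subtype.ext (hc _ hz _ x.2))
    (fun z hz => mem_center_iff.2 fun x => Subtype.ext (hc _ (hZ hz) _ x.2))
    (fun x y => hk _ x.2 _ y.2) (fun x hx z hz => ?_) (fun _ h => hV h)
    (fun a ha b hb => Subtype.ext (hA _ ha _ hb)) (c (hZ.trans (hV.trans hQ)) ▸ h1)
  obtain ⟨y, hy, e⟩ := hs _ x.2 hx _ hz
  exact ⟨⟨y, hy⟩, Subtype.ext e⟩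

/-- Distinct characters of `V` that occur in the permutation module, each `c` times. -/
theorem deg_bound {Q V : Subgroup G} [IsMulCommutative V] (hc : ∀ x ∈ Q, ∀ v ∈ V, x * v = v * x)
    {ι : Type} (S : Finset ι) (lam : ι → V →* ℂˣ) (inj : Set.InjOn lam S) (pt : ι → Ω)
    (h1 : ∀ i ∈ S, ∀ v : V, v.1 • pt i = pt i → lam i v = 1) {c : ℕ}
    (h2 : ∀ i ∈ S, c * (stabilizer G (pt i)).relIndex V ≤ (stabilizer G (pt i)).relIndex Q) :
    c * S.card ≤ Nat.card Ω := by
  classical
  haveI := Fintype.ofFinite Ω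
  letI : CommGroup V := { (inferInstance : Group V) with mul_comm := mul_comm' }
  haveI : NeZero (Monoid.exponent V) := ⟨Monoid.exponent_ne_zero_of_finite⟩
  have d0 : ∀ w : Ω, (0 : ℚ) < (stabilizer G w).relIndex V := fun w => by
    exact_mod_cast Nat.pos_of_ne_zero (index_ne_zero_of_finite (H := (stabilizer G w).subgroupOf V))
  let C : ι → Ω → Prop := fun i w => ∀ v : V, v.1 • w = w → lam i v = 1
  have a : ∀ w, (S.filter (C · w)).card ≤ (stabilizer G w).relIndex V := fun w => by
    rw [← Fintype.card_coe, ← Nat.card_eq_fintype_card, relIndex, index,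
      ← CommGroup.card_subgroupOrderIsoSubgroupMonoidHom ℂ]
    exact Nat.card_le_card_of_injective (fun i => ⟨lam i,
      (CommGroup.mem_subgroupOrderIsoSubgroupMonoidHom_iff ℂ _ _).2 (Finset.mem_filter.1 i.2).2⟩)
      fun i j e => Subtype.ext (inj (Finset.mem_filter.1 i.2).1 (Finset.mem_filter.1 j.2).1
        (congrArg Subtype.val e))
  have b : ∀ i ∈ S, (c : ℚ) ≤ ∑ w, if C i w then ((stabilizer G w).relIndex V : ℚ)⁻¹ else 0 := by
    intro i hi
    have k : ∀ w ∈ orbit Q (pt i), (stabilizer G w).subgroupOf V = (stabilizer G (pt i)).subgroupOf V := by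
      rintro _ ⟨g, rfl⟩
      ext v
      change v.1 • g.1 • pt i = g.1 • pt i ↔ v.1 • pt i = pt i
      rw [← mul_smul, ← hc _ g.2 _ v.2, mul_smul, smul_left_cancel_iff]
    rw [← Finset.sum_filter]
    refine le_trans ?_ (Finset.sum_le_sum_of_subset_of_nonneg (s := (orbit Q (pt i)).toFinset)
      (fun w hw => Finset.mem_filter.2 ⟨Finset.mem_univ _, fun v hv =>
        h1 i hi v ((k w (Set.mem_toFinset.1 hw)).le hv)⟩) fun w _ _ => (inv_pos.2 (d0 w)).le)
    rw [Finset.sum_congr rfl (g := fun _ => ((stabilizer G (pt i)).relIndex V : ℚ)⁻¹) fun w hw => by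
      rw [relIndex, k w (Set.mem_toFinset.1 hw), relIndex], Finset.sum_const, Set.toFinset_card,
      ← Nat.card_eq_fintype_card, card_orbit, nsmul_eq_mul, le_mul_inv_iff₀ (d0 _)]
    exact_mod_cast h2 i hi
  have s := Finset.sum_le_sum b
  rw [Finset.sum_comm, Finset.sum_const, nsmul_eq_mul] at s
  have t := s.trans (Finset.sum_le_sum (g := fun _ => 1) fun w _ => by
    rw [← Finset.sum_filter, Finset.sum_const, nsmul_eq_mul, mul_inv_le_iff₀ (d0 w), one_mul]
    exact_mod_cast a w)
  rw [Finset.sum_const, Finset.card_univ, nsmul_eq_mul, mul_one, ← Nat.card_eq_fintype_card,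
    mul_comm] at t
  exact_mod_cast t

end H32.CK
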