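import Cfsg.Agent.Base
import Cfsg.Agent.H32.Wreath
import Cfsg.Agent.H28.CharCenter

/-! Gagola's embedding of solvable groups in central quotients of groups of central type. -/

set_option autoImplicit false

namespace H32

open Cfsg H28 H33 RegularWreathProduct UniqueFactorizationMonoid

universe u

/-- Data of a group of central type over `T`, with prime set given by `n`. -/
structure CTData {H T : Type*} [Group H] [Group T] (ψ : H →* T) (χ : H → ℂ) (n : ℕ) : Prop where
  surj : Function.Surjective ψ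
  irr : IsIrrCharacter H χ
  deg : χ 1 ^ 2 = Nat.card T
  primes : ∀ q : ℕ, q.Prime → q ∣ Nat.card T → q ∣ n
  expo : ∀ z, ψ z = 1 → χ z ^ radical n = χ 1 ^ radical n
  ex : ∀ q : ℕ, q.Prime → q ∣ n → ∃ z, ψ z = 1 ∧ χ z ≠ χ 1 ∧ χ z ^ q = χ 1 ^ q

section step
variable {H T Q : Type*} [Group H] [Group T] [CommGroup Q] [Fintype Q]

/-- product of the second coordinates -/
def wrSum : (H × Q) ≀ᵣ Q →* Q where
  toFun w := ∏ q, (w.left q).2
  map_one' := by simp
  map_mul' a b := by
    rw [← Fintype.prod_equiv (Equiv.mulLeft a.right⁻¹) (fun q => (b.left (a.right⁻¹ * q)).2)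
      (fun q => (b.left q).2) fun _ => rfl, ← Finset.prod_mul_distrib]
    rfl

theorem CTData.step [Finite H] {ψ : H →* T} {χ : H → ℂ} {n : ℕ} (hn : n ≠ 0) (h : CTData ψ χ n)
    (hQ : (Nat.card Q).Prime) :
    ∃ χ' : (H × Q) ≀ᵣ Q → ℂ,
      CTData ((wrMap (ψ.comp (MonoidHom.fst H Q))).prod wrSum) χ' (n * Nat.card Q) := by
  classical
  have := Fintype.ofFinite ((H × Q) ≀ᵣ Q)
  have hT : Finite T := Finite.of_surjective ψ h.surj
  have : NeZero (Monoid.exponent Q) := ⟨Monoid.exponent_ne_zero_of_finite⟩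
  obtain ⟨β⟩ := CommGroup.monoidHom_mulEquiv_of_hasEnoughRootsOfUnity Q ℂ
  replace β := β.symm
  have h1 := h.irr.apply_one_ne_zero
  let φ : Q → H × Q → ℂ := fun q x => χ x.1 * β q x.2
  have hφ : ∀ q, IsIrrCharacter _ (φ q) := fun q =>
    (h.irr.comp_surjective (MonoidHom.fst H Q) Prod.fst_surjective).mul_linear
      (isCharacter_of_hom ((β q).comp (MonoidHom.snd H Q))) (by simp)
  let θ : wrBase (H × Q) Q → ℂ := fun b => piFun φ (wrBaseEquiv b)
  have hθ : IsIrrCharacter _ θ := (isIrrCharacter_piFun hφ).comp_mulEquiv wrBaseEquiv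
  have hin : inertia θ ≤ wrBase (H × Q) Q := by
    intro w hw
    have e := mem_inertia.1 hw
    simp only [θ] at e
    rw [cj_wrBase _ fun q => (hφ q).isClassFunction] at e
    have h2 : piFun (fun x => φ (w.right * x)) = piFun φ := by
      ext f
      simpa using congrFun e (wrBaseEquiv.symm f)
    have h3 := congrFun (eq_of_piFun_eq (fun x => hφ (w.right * x)) hφ h2) 1
    have h4 : β w.right = 1 := by
      ext c
      have := congrFun h3 (1, c)
      simpa [φ, h1] using this
    exact (map_eq_one_iff β β.injective).1 h4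
  have hval : ∀ z : (H × Q) ≀ᵣ Q, z.right = 1 → wrSum z = 1 →
      indFun (wrBase (H × Q) Q) θ z =
        Nat.card Q * ((∏ q, χ (z.left q).1) * ∏ q, (β q (z.left q).2 : ℂ)) := by
    intro z hz hs
    have e := congrFun (res_indFun_normal θ) ⟨z, hz⟩
    simp only at e
    rw [e, Pi.smul_apply, Finset.sum_apply, Finset.sum_congr rfl (g := fun _ =>
      ((∏ q, χ (z.left q).1) * ∏ q, (β q (z.left q).2 : ℂ))), Finset.sum_const, Finset.card_univ,
      Fintype.card_eq_nat_card, smul_eq_mul, nsmul_eq_mul, ← mul_assoc,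
      ← (wrBase (H × Q) Q).index_mul_card, wrBase_index]
    · congr 1
      have := card_ne_zero' (wrBase (H × Q) Q)
      push_cast
      field_simp
    · intro w _
      simp only [θ]
      rw [cj_wrBase _ fun q => (hφ q).isClassFunction]
      simp only [piFun_apply, φ, wrBaseEquiv_apply, map_mul, MonoidHom.mul_apply, Units.val_mul,
        Finset.prod_mul_distrib]
      have : ∏ q, (β w.right (z.left q).2 : ℂ) = 1 := by
        rw [← Units.coe_prod, ← map_prod]
        change ((β w.right (wrSum z) : ℂˣ) : ℂ) = 1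
        rw [hs]; simp
      rw [this, one_mul]
  have hone : indFun (wrBase (H × Q) Q) θ 1 = Nat.card Q * χ 1 ^ Nat.card Q := by
    rw [hval 1 rfl (map_one _)]
    simp
  have hQ0 : (Nat.card Q : ℂ) ≠ 0 := card_ne_zero' Q
  have hker : ∀ z : (H × Q) ≀ᵣ Q, ((wrMap (ψ.comp (MonoidHom.fst H Q))).prod wrSum) z = 1 ↔
      z.right = 1 ∧ wrSum z = 1 ∧ ∀ q, ψ (z.left q).1 = 1 := by
    intro z
    rw [MonoidHom.prod_apply, Prod.mk_eq_one, RegularWreathProduct.ext_iff, funext_iff]
    exact ⟨fun h => ⟨h.1.2, h.2, h.1.1⟩, fun h => ⟨⟨h.2.2, h.1⟩, h.2.1⟩⟩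
  have hβ : ∀ q c, (β q c : ℂ) ^ Nat.card Q = 1 := fun q c => by
    rw [← Units.val_pow_eq_pow_val, ← map_pow, pow_card_eq_one', map_one, Units.val_one]
  refine ⟨indFun (wrBase (H × Q) Q) θ, ?_, (isIrrCharacter_indFun_iff hθ).2 hin, ?_, ?_, ?_, ?_⟩
  · rintro ⟨t, c⟩
    choose s hs using h.surj
    refine ⟨⟨fun q => (s (t.left q), (Pi.mulSingle 1 c : Q → Q) q), t.right⟩, Prod.ext ?_ ?_⟩
    · exact RegularWreathProduct.ext (funext fun q => hs _) rfl
    · change ∏ q, (Pi.mulSingle 1 c : Q → Q) q = c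
      simp
  · rw [hone, Nat.card_prod, RegularWreathProduct.card, mul_pow, ← pow_mul, mul_comm _ 2, pow_mul,
      h.deg]
    push_cast
    ring
  · intro q hq hd
    rw [Nat.card_prod, RegularWreathProduct.card, hq.dvd_mul, hq.dvd_mul] at hd
    rcases hd with (hd | hd) | hd
    · exact (h.primes q hq (hq.dvd_of_dvd_pow hd)).mul_right _
    · exact hd.mul_left _
    · exact hd.mul_left _
  · intro z hz
    obtain ⟨z1, z2, z3⟩ := (hker z).1 hz
    have hnQ : n * Nat.card Q ≠ 0 := mul_ne_zero hn hQ.ne_zero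
    obtain ⟨a, ha⟩ : radical n ∣ radical (n * Nat.card Q) :=
      radical_dvd_radical (dvd_mul_right _ _) hnQ
    obtain ⟨b, hb⟩ : Nat.card Q ∣ radical (n * Nat.card Q) :=
      (dvd_radical_iff_of_irreducible hQ.prime.irreducible hnQ).2 (dvd_mul_left _ _)
    rw [hval z z1 z2, hone, mul_pow, mul_pow, mul_pow, ← Finset.prod_pow, ← Finset.prod_pow]
    congr 1
    rw [Finset.prod_eq_one (f := fun q => (β q (z.left q).2 : ℂ) ^ radical (n * Nat.card Q))
      (fun q _ => by rw [hb, pow_mul, hβ, one_pow]), mul_one,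
      Finset.prod_congr rfl (g := fun _ => χ 1 ^ radical (n * Nat.card Q))
      (fun q _ => by rw [ha, pow_mul, pow_mul, h.expo _ (z3 q)]), Finset.prod_const,
      Finset.card_univ, Fintype.card_eq_nat_card, ← pow_mul, ← pow_mul, mul_comm]
  · intro q hq hd
    rcases hq.dvd_mul.1 hd with hd | hd
    · obtain ⟨z, z1, z2, z3⟩ := h.ex q hq hd
      let w : (H × Q) ≀ᵣ Q := ⟨fun x => ((Pi.mulSingle 1 z : Q → H) x, 1), 1⟩
      have hs : wrSum w = 1 := by simp [wrSum, w]
      have e : indFun (wrBase (H × Q) Q) θ w * χ 1 = indFun (wrBase (H × Q) Q) θ 1 * χ z := by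
        rw [hval w rfl hs, hval 1 rfl (map_one _),
          ← Finset.mul_prod_erase _ (fun x => χ (w.left x).1) (Finset.mem_univ 1),
          ← Finset.mul_prod_erase _ (fun x => χ ((1 : (H × Q) ≀ᵣ Q).left x).1)
            (Finset.mem_univ 1),
          Finset.prod_congr rfl (f := fun x => χ (w.left x).1) (g := fun _ => χ 1)
            (fun x hx => by simp [w, Pi.mulSingle_eq_of_ne (Finset.ne_of_mem_erase hx)])]
        simp [w]
        ring
      have h0 : indFun (wrBase (H × Q) Q) θ 1 ≠ 0 := by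
        rw [hone]; exact mul_ne_zero hQ0 (pow_ne_zero _ h1)
      refine ⟨w, (hker w).2 ⟨rfl, hs, fun x => ?_⟩, fun e2 => z2 ?_, ?_⟩
      · by_cases hx : x = 1
        · subst hx; simp [w, z1]
        · simp [w, Pi.mulSingle_eq_of_ne hx]
      · rw [e2] at e
        exact (mul_left_cancel₀ h0 e).symm
      · have e2 := congrArg (· ^ q) e
        simp only [mul_pow, z3] at e2
        exact mul_right_cancel₀ (pow_ne_zero _ h1) e2
    · obtain rfl := (Nat.prime_dvd_prime_iff_eq hq hQ).1 hd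
      have : Nontrivial Q := Finite.one_lt_card_iff_nontrivial.1 hQ.one_lt
      obtain ⟨a, ha⟩ := exists_ne (1 : Q)
      obtain ⟨c, hc⟩ : ∃ c, β a c ≠ 1 := by
        by_contra hh
        push Not at hh
        exact ha ((map_eq_one_iff β β.injective).1 (MonoidHom.ext hh))
      let w : (H × Q) ≀ᵣ Q :=
        ⟨fun x => (1, (Pi.mulSingle a c : Q → Q) x * ((Pi.mulSingle 1 c : Q → Q) x)⁻¹), 1⟩
      have hs : wrSum w = 1 := by simp [wrSum, w, Finset.prod_mul_distrib]
      have e1 : ∀ b : Q, ∏ x, (β x ((Pi.mulSingle b c : Q → Q) x) : ℂ) = β b c := by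
        intro b
        rw [Finset.prod_eq_single b]
        · simp
        · intro x _ hx; simp [Pi.mulSingle_eq_of_ne hx]
        · simp
      have e : indFun (wrBase (H × Q) Q) θ w = indFun (wrBase (H × Q) Q) θ 1 * β a c := by
        rw [hval w rfl hs, hone]
        simp [w, Finset.prod_mul_distrib, e1, mul_assoc]
      have h0 : indFun (wrBase (H × Q) Q) θ 1 ≠ 0 := by
        rw [hone]; exact mul_ne_zero hQ0 (pow_ne_zero _ h1)
      refine ⟨w, (hker w).2 ⟨rfl, hs, fun x => by simp [w]⟩, fun e2 => hc ?_, ?_⟩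
      · rw [e2] at e
        exact Units.ext (mul_left_cancel₀ h0 (e.symm.trans (mul_one _).symm))
      · rw [e, mul_pow, hβ, mul_one]

end step

theorem exists_ctData (n : ℕ) : ∀ (G : Type u) [Group G] [Finite G] [Group.IsSolvable G],
    Nat.card G = n → ∃ (H : Type u) (_ : Group H) (_ : Finite H) (T : Type u) (_ : Group T)
      (ψ : H →* T) (χ : H → ℂ), CTData ψ χ n ∧ ∃ f : G →* T, Function.Injective f := by
  induction n using Nat.strong_induction_on with
  | _ n ih =>
  intro G _ _ _ hn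
  rcases subsingleton_or_nontrivial G with h | h
  · have h1 : n = 1 := by rw [← hn]; exact Nat.card_of_subsingleton 1
    refine ⟨G, inferInstance, inferInstance, G, inferInstance, MonoidHom.id G, fun _ => 1,
      ⟨fun x => ⟨x, rfl⟩, isIrrCharacter_one, by simp, fun q _ h => hn ▸ h,
        fun _ _ => rfl, fun q hq hd => ?_⟩, MonoidHom.id G, fun _ _ h => h⟩
    exact absurd (Nat.dvd_one.1 (h1 ▸ hd)) hq.one_lt.ne'
  · obtain ⟨N, hN, hp⟩ := H1.exists_normal_prime_index G
    have hlt : Nat.card N < n := by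
      rw [← hn, ← N.index_mul_card]
      have := hp.one_lt
      have h2 : 0 < Nat.card N := Nat.card_pos
      nlinarith
    obtain ⟨H, _, _, T, _, ψ, χ, hd, f, hf⟩ := ih _ hlt N rfl
    letI := Fintype.ofFinite (G ⧸ N)
    have : Fact (Nat.card (G ⧸ N)).Prime := ⟨hp⟩
    have hcyc : IsCyclic (G ⧸ N) := isCyclic_of_prime_card rfl
    letI := hcyc.commGroup
    obtain ⟨χ', h'⟩ := hd.step (Q := G ⧸ N) Nat.card_pos.ne' hp
    rw [← Subgroup.index_eq_card, N.card_mul_index, hn] at h'
    exact ⟨_, inferInstance, inferInstance, _, inferInstance, _, χ', h',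
      (MonoidHom.inl _ _).comp ((wrMap f).comp (kkHom N)), (Prod.mk_left_injective _).comp
        ((wrMap_injective hf).comp (kkHom_injective N))⟩

section final
variable {H T : Type*} [Group H] [Finite H] [Group T] {ψ : H →* T} {χ : H → ℂ} {n : ℕ}

theorem CTData.ker_le (h : CTData ψ χ n) : ψ.ker ≤ charCenter χ := by
  intro z hz
  rw [h.irr.mem_charCenter]
  have e := congrArg norm (h.expo z hz)
  rw [norm_pow, norm_pow] at e
  have e2 := (pow_left_inj₀ (norm_nonneg _) (norm_nonneg _) radical_ne_zero).1 e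
  obtain ⟨d, hd⟩ := h.irr.isCharacter.exists_degree
  rw [e2, hd]
  simp

omit [Finite H] in
theorem CTData.index_ker (h : CTData ψ χ n) : ψ.ker.index = Nat.card T := by
  rw [Subgroup.index_ker, MonoidHom.range_eq_top.2 h.surj, Subgroup.card_top]

theorem CTData.vanish (h : CTData ψ χ n) (g : H) (hg : g ∉ ψ.ker) : χ g = 0 := by
  obtain ⟨d, hd⟩ := h.irr.isCharacter.exists_degree
  refine (h.irr.degree_sq_eq_index_iff h.ker_le hd).1 ?_ g hg
  have := h.deg
  rw [hd] at this
  rw [h.index_ker]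
  exact_mod_cast this

theorem CTData.charCenter_eq (h : CTData ψ χ n) : charCenter χ = ψ.ker := by
  refine le_antisymm (fun g hg => ?_) h.ker_le
  by_contra hh
  obtain ⟨d, hd, e⟩ := h.irr.exists_degree_pos
  rw [h.irr.mem_charCenter, h.vanish g hh, e] at hg
  have h2 : (0 : ℝ) = d := by simpa using hg
  exact hd.ne (by exact_mod_cast h2)

theorem CTData.exists_faithful (h : CTData ψ χ n) [(charKer χ).Normal] :
    ∃ (ψ' : H ⧸ charKer χ →* T) (η : H ⧸ charKer χ → ℂ), CTData ψ' η n ∧ charKer η = ⊥ := by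
  obtain ⟨η, hη, e⟩ := h.irr.exists_quotient (charKer χ) le_rfl
  have e1 : η 1 = χ 1 := e 1
  refine ⟨QuotientGroup.lift _ ψ fun x hx => (h.charCenter_eq ▸ charKer_le_charCenter) hx, η,
    ⟨fun t => ?_, hη, e1 ▸ h.deg, h.primes, fun z hz => ?_, fun q hq hd => ?_⟩, ?_⟩
  · obtain ⟨x, rfl⟩ := h.surj t
    exact ⟨x, rfl⟩
  · obtain ⟨x, rfl⟩ := QuotientGroup.mk_surjective z
    rw [e, e1]
    exact h.expo x hz
  · obtain ⟨z, z1, z2, z3⟩ := h.ex q hq hd
    exact ⟨z, z1, by rwa [e, e1], by rwa [e, e1]⟩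
  · refine charKer_eq_bot_of_forall fun z hz => ?_
    obtain ⟨x, rfl⟩ := QuotientGroup.mk_surjective z
    rw [e, e1] at hz
    exact (QuotientGroup.eq_one_iff x).2 (h.irr.mem_charKer.2 hz)

theorem CTData.final (h : CTData ψ χ n) (hk : charKer χ = ⊥) :
    charDegree χ ^ 2 = (Subgroup.center H).index ∧
      Nonempty (H ⧸ Subgroup.center H ≃* T) ∧
      (∀ p : ℕ, p.Prime → ((p ∣ Nat.card H ↔ p ∣ n) ∧
        (p ∣ Nat.card (Subgroup.center H) ↔ p ∣ n))) ∧
      Squarefree (Nat.card (Subgroup.center H)) := by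
  have hZ : Subgroup.center H = ψ.ker := by rw [← h.irr.charCenter_eq_center hk, h.charCenter_eq]
  have h1 := h.irr.apply_one_ne_zero
  obtain ⟨lam, hlam⟩ := h.irr.exists_central_hom (Z := Subgroup.center H) le_rfl
  have hinj : Function.Injective lam := by
    rw [← MonoidHom.ker_eq_bot_iff, ker_eq_of_translation h.irr.ne_zero hlam, hk]
    simp
  have hpow : ∀ (z : Subgroup.center H) (m : ℕ), χ z ^ m = χ 1 ^ m → z ^ m = 1 := by
    intro z m e
    have e2 := hlam z 1
    rw [mul_one] at e2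
    rw [e2, mul_pow] at e
    apply hinj
    rw [map_pow, map_one]
    exact Units.ext (mul_right_cancel₀ (pow_ne_zero _ h1) (e.trans (one_mul _).symm))
  have hcyc := h.irr.isCyclic_center hk
  have hdvd : Nat.card (Subgroup.center H) ∣ radical n := by
    rw [← hcyc.exponent_eq_card, Monoid.exponent_dvd_iff_forall_pow_eq_one]
    exact fun z => hpow z _ (h.expo z (show (z : H) ∈ ψ.ker from hZ ▸ z.2))
  have hp : ∀ p : ℕ, p.Prime → (p ∣ Nat.card (Subgroup.center H) ↔ p ∣ n) := by
    intro p hp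
    refine ⟨fun hd => (hd.trans hdvd).trans radical_dvd_self, fun hd => ?_⟩
    obtain ⟨z, z1, z2, z3⟩ := h.ex p hp hd
    have hz : z ∈ Subgroup.center H := hZ ▸ z1
    have : Fact p.Prime := ⟨hp⟩
    rw [← orderOf_eq_prime (hpow ⟨z, hz⟩ p z3) fun e => z2 (by rw [show z = 1 from
      congrArg Subtype.val e])]
    exact orderOf_dvd_natCard _
  refine ⟨?_, ⟨(QuotientGroup.quotientMulEquivOfEq hZ).trans
    (QuotientGroup.quotientKerEquivOfSurjective ψ h.surj)⟩, fun p hp' => ⟨?_, hp p hp'⟩,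
    squarefree_radical.squarefree_of_dvd hdvd⟩
  · have := h.deg
    rw [← h.irr.cast_charDegree] at this
    rw [hZ, h.index_ker]
    exact_mod_cast this
  · refine ⟨fun hd => ?_, fun hd => ((hp p hp').2 hd).trans (Subgroup.card_subgroup_dvd_card _)⟩
    rw [← (Subgroup.center H).card_mul_index, hp'.dvd_mul] at hd
    rcases hd with hd | hd
    · exact (hp p hp').1 hd
    · rw [hZ, h.index_ker] at hd
      exact h.primes p hp' hd

end final

end H32
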