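import Cfsg.Agent.H11.FBSpec

/-! FB-TS1: consequences of the type of the normaliser action, part 1. -/

set_option autoImplicit false
set_option linter.unusedSectionVars false

namespace H32.FBT

open MulAction Subgroup H11.FB Equiv Equiv.Perm

section perm

variable {α : Type*} [Fintype α] [DecidableEq α] {a b c d : α}

theorem card4 (h : D4 a b c d) : ({a, b, c, d} : Finset α).card = 4 := by
  obtain ⟨h1, h2, h3, h4, h5, h6⟩ := h
  rw [Finset.card_insert_of_notMem (by simp [h1, h2, h3]),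
    Finset.card_insert_of_notMem (by simp [h4, h5]), Finset.card_pair h6]

theorem card_compl (h : D4 a b c d) :
    (({a, b, c, d} : Finset α)ᶜ).card = Fintype.card α - 4 := by
  rw [Finset.card_compl, card4 h]

theorem supp_sub {σ : Perm α} (ha : σ a = a) (hb : σ b = b) (hc : σ c = c) (hd : σ d = d) :
    σ.support ⊆ ({a, b, c, d} : Finset α)ᶜ := by
  intro x hx
  rw [mem_support] at hx
  simp only [Finset.mem_compl, Finset.mem_insert, Finset.mem_singleton]
  rintro (rfl | rfl | rfl | rfl) <;> contradiction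

theorem eq_one_of_even {σ : Perm α} (h2 : σ.support.card ≤ 2) (hs : sign σ = 1) : σ = 1 := by
  rcases Nat.lt_or_ge σ.support.card 2 with h | h
  · exact card_support_le_one.1 (by omega)
  · have := (card_support_eq_two.1 (le_antisymm h2 h)).sign_eq
    rw [hs] at this
    exact absurd this (by decide)

theorem sharp11 (h : D4 a b c d) (hc : Fintype.card α = 11) (R : Subgroup (Perm α))
    (hR : Nat.card R = 7920)
    (ht : ∀ x y z w : α, D4 x y z w → ∃ g ∈ R, g a = x ∧ g b = y ∧ g c = z ∧ g d = w)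
    {σ : Perm α} (hσ : σ ∈ R) (ha : σ a = a) (hb : σ b = b) (hc' : σ c = c) (hd : σ d = d) :
    σ = 1 := by
  obtain ⟨h1, h2, h3, h4, h5, h6⟩ := h
  have hinj : Function.Injective (![a, b, c, d] : Fin 4 → α) := by
    intro i j hij
    fin_cases i <;> fin_cases j <;> first | rfl | (exfalso; simp at hij; grind)
  let e0 : Fin 4 ↪ α := ⟨![a, b, c, d], hinj⟩
  let f : R → (Fin 4 ↪ α) := fun g => e0.trans (g : Perm α).toEmbedding
  have hsurj : Function.Surjective f := by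
    intro e
    obtain ⟨g, hg, g1, g2, g3, g4⟩ := ht (e 0) (e 1) (e 2) (e 3)
      ⟨e.injective.ne (by decide), e.injective.ne (by decide), e.injective.ne (by decide),
        e.injective.ne (by decide), e.injective.ne (by decide), e.injective.ne (by decide)⟩
    refine ⟨⟨g, hg⟩, Function.Embedding.ext fun i => ?_⟩
    fin_cases i
    · exact g1
    · exact g2
    · exact g3
    · exact g4
  have hcard : Nat.card R = Nat.card (Fin 4 ↪ α) := by
    rw [hR, Nat.card_eq_fintype_card, Fintype.card_embedding_eq, hc, Fintype.card_fin]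
    decide
  have hbij := (Nat.bijective_iff_surjective_and_card f).2 ⟨hsurj, hcard⟩
  have : (⟨σ, hσ⟩ : R) = 1 := hbij.1 (Function.Embedding.ext fun i => by
    fin_cases i
    · exact ha
    · exact hb
    · exact hc'
    · exact hd)
  exact congrArg Subtype.val this

theorem three {σ : Perm α} {x y z : α} (hxy : x ≠ y) (hxz : x ≠ z) (hyz : y ≠ z)
    (hs : σ.support ⊆ {x, y, z}) (he : sign σ = 1) :
    σ = 1 ∨ (σ x = y ∧ σ y = z ∧ σ z = x) ∨ (σ x = z ∧ σ z = y ∧ σ y = x) := by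
  have h3 : ({x, y, z} : Finset α).card = 3 := Finset.card_eq_three.2 ⟨x, y, z, hxy, hxz, hyz, rfl⟩
  by_cases h2 : σ.support.card ≤ 2
  · exact Or.inl (eq_one_of_even h2 he)
  right
  have e : σ.support = {x, y, z} := Finset.eq_of_subset_of_card_le hs (by omega)
  have m : ∀ w, w = x ∨ w = y ∨ w = z → σ w ≠ w ∧ (σ w = x ∨ σ w = y ∨ σ w = z) := by
    intro w hw
    have h1 : w ∈ σ.support := by rw [e]; simpa using hw
    have h4 := apply_mem_support.2 h1
    rw [e] at h4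
    exact ⟨mem_support.1 h1, by simpa using h4⟩
  obtain ⟨x1, x2⟩ := m x (Or.inl rfl)
  obtain ⟨y1, y2⟩ := m y (Or.inr (Or.inl rfl))
  obtain ⟨z1, z2⟩ := m z (Or.inr (Or.inr rfl))
  have i1 : σ x ≠ σ y := σ.injective.ne hxy
  have i2 : σ x ≠ σ z := σ.injective.ne hxz
  have i3 : σ y ≠ σ z := σ.injective.ne hyz
  grind

theorem comm7 (h : D4 a b c d) (hc : Fintype.card α = 7) {σ τ : Perm α}
    (h1 : σ.support ⊆ ({a, b, c, d} : Finset α)ᶜ) (h2 : τ.support ⊆ ({a, b, c, d} : Finset α)ᶜ)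
    (s1 : sign σ = 1) (s2 : sign τ = 1) : σ * τ = τ * σ := by
  obtain ⟨x, y, z, hxy, hxz, hyz, e⟩ :=
    Finset.card_eq_three.1 (show (({a, b, c, d} : Finset α)ᶜ).card = 3 by rw [card_compl h, hc])
  rw [e] at h1 h2
  have t1 := three hxy hxz hyz h1 s1
  have t2 := three hxy hxz hyz h2 s2
  rcases t1 with rfl | t1
  · simp
  rcases t2 with rfl | t2
  · simp
  ext w
  by_cases hw : w ∈ ({x, y, z} : Finset α)
  · simp only [Finset.mem_insert, Finset.mem_singleton] at hw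
    simp only [Perm.mul_apply]
    grind
  · have e1 : σ w = w := notMem_support.1 fun h => hw (h1 h)
    have e2 : τ w = w := notMem_support.1 fun h => hw (h2 h)
    simp only [Perm.mul_apply, e1, e2]

theorem exists7 (h : D4 a b c d) (hc : Fintype.card α = 7) :
    ∃ σ : Perm α, sign σ = 1 ∧ σ.support = ({a, b, c, d} : Finset α)ᶜ := by
  obtain ⟨x, y, z, hxy, hxz, hyz, e⟩ :=
    Finset.card_eq_three.1 (show (({a, b, c, d} : Finset α)ᶜ).card = 3 by rw [card_compl h, hc])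
  refine ⟨swap x y * swap y z, by simp [hxy, hyz], ?_⟩
  rw [e, support_swap_mul_swap (by simp [hxy, hxz, hyz])]

end perm

universe u v in
theorem jobTS1 : JobTS1.{u, v} := by
  intro G Ω _ _ _ _ a b c d U hD hU ⟨S, π, hS, hπ, hT, hty⟩
  have hmem : ∀ ω, ω ∈ S ↔ ω ∈ fixedPoints U Ω := fun ω => by rw [← hS]; rfl
  have hcard : (fixedPoints U Ω).ncard = S.card := by rw [← hS, Set.ncard_coe_finset]
  have hcS : Fintype.card S = S.card := Fintype.card_coe S
  have ha : a ∈ S := (hmem a).2 fun u => (mem_L4.1 (hU u.2)).1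
  have hb : b ∈ S := (hmem b).2 fun u => (mem_L4.1 (hU u.2)).2.1
  have hc : c ∈ S := (hmem c).2 fun u => (mem_L4.1 (hU u.2)).2.2.1
  have hd : d ∈ S := (hmem d).2 fun u => (mem_L4.1 (hU u.2)).2.2.2
  have hD' : D4 (⟨a, ha⟩ : S) ⟨b, hb⟩ ⟨c, hc⟩ ⟨d, hd⟩ := by
    obtain ⟨h1, h2, h3, h4, h5, h6⟩ := hD
    exact ⟨fun e => h1 (congrArg Subtype.val e), fun e => h2 (congrArg Subtype.val e),
      fun e => h3 (congrArg Subtype.val e), fun e => h4 (congrArg Subtype.val e),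
      fun e => h5 (congrArg Subtype.val e), fun e => h6 (congrArg Subtype.val e)⟩
  have hfix : ∀ (g : G) (hg : g ∈ normalizer (U : Set G)), g ∈ L4 G a b c d →
      π ⟨g, hg⟩ ⟨a, ha⟩ = ⟨a, ha⟩ ∧ π ⟨g, hg⟩ ⟨b, hb⟩ = ⟨b, hb⟩ ∧ π ⟨g, hg⟩ ⟨c, hc⟩ = ⟨c, hc⟩ ∧
        π ⟨g, hg⟩ ⟨d, hd⟩ = ⟨d, hd⟩ := by
    intro g hg hL
    obtain ⟨h1, h2, h3, h4⟩ := mem_L4.1 hL
    exact ⟨Subtype.ext ((hπ _ _).trans h1), Subtype.ext ((hπ _ _).trans h2),
      Subtype.ext ((hπ _ _).trans h3), Subtype.ext ((hπ _ _).trans h4)⟩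
  have hsharp : (fixedPoints U Ω).ncard ≠ 7 → ∀ g ∈ normalizer (U : Set G), g ∈ L4 G a b c d →
      ∀ ω ∈ fixedPoints U Ω, g • ω = ω := by
    intro h7 g hg hL ω hω
    obtain ⟨h1, h2, h3, h4⟩ := hfix g hg hL
    have hsup := Finset.card_le_card (supp_sub h1 h2 h3 h4)
    rw [card_compl hD', hcS] at hsup
    have e : π ⟨g, hg⟩ = 1 := by
      rcases hty with ⟨h5, -⟩ | ⟨h5, h6⟩ | ⟨h5, h6⟩
      · exact card_support_le_one.1 (by omega)
      · refine eq_one_of_even (by omega) (mem_alternatingGroup.1 ?_)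
        rw [← h6]
        exact ⟨_, rfl⟩
      · refine sharp11 hD' (hcS.trans h5) π.range h6 (fun x y z w hx => ?_) ⟨_, rfl⟩ h1 h2 h3 h4
        obtain ⟨k1, k2, k3, k4, k5, k6⟩ := hx
        obtain ⟨k, hk, e1, e2, e3, e4⟩ := hT a b c d x y z w hD
          ⟨Subtype.val_injective.ne k1, Subtype.val_injective.ne k2, Subtype.val_injective.ne k3,
            Subtype.val_injective.ne k4, Subtype.val_injective.ne k5, Subtype.val_injective.ne k6⟩
          ha hb hc hd x.2 y.2 z.2 w.2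
        exact ⟨π ⟨k, hk⟩, ⟨_, rfl⟩, Subtype.ext ((hπ _ _).trans e1),
          Subtype.ext ((hπ _ _).trans e2), Subtype.ext ((hπ _ _).trans e3),
          Subtype.ext ((hπ _ _).trans e4)⟩
    have := hπ ⟨g, hg⟩ ⟨ω, (hmem ω).2 hω⟩
    rw [e] at this
    exact this.symm
  have halt : S.card = 7 → π.range = alternatingGroup S := by
    intro h7
    rcases hty with ⟨h5, -⟩ | ⟨-, h6⟩ | ⟨h5, -⟩
    · omega
    · exact h6
    · omega
  refine ⟨by omega, hS ▸ hT, hsharp, fun h7 => ?_, fun g hg hL g' hg' hL' ω hω => ?_⟩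
  · rw [hcard] at h7
    obtain ⟨σ, hσ, hsup⟩ := exists7 hD' (hcS.trans h7)
    obtain ⟨⟨g, hg⟩, rfl⟩ : σ ∈ π.range := by rw [halt h7]; exact mem_alternatingGroup.2 hσ
    have hf : ∀ x : S, g • (x : Ω) = x ↔
        x ∈ ({⟨a, ha⟩, ⟨b, hb⟩, ⟨c, hc⟩, ⟨d, hd⟩} : Finset S) := by
      intro x
      rw [← Finset.notMem_compl, ← hsup, notMem_support, Subtype.ext_iff, hπ]
    refine ⟨g, hg, mem_L4.2 ⟨(hf ⟨a, ha⟩).2 (by simp), (hf ⟨b, hb⟩).2 (by simp),
      (hf ⟨c, hc⟩).2 (by simp), (hf ⟨d, hd⟩).2 (by simp)⟩, fun ω hω e => ?_⟩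
    have := (hf ⟨ω, (hmem ω).2 hω⟩).1 e
    simpa using this
  · by_cases h7 : (fixedPoints U Ω).ncard = 7
    · rw [hcard] at h7
      obtain ⟨h1, h2, h3, h4⟩ := hfix g hg hL
      obtain ⟨k1, k2, k3, k4⟩ := hfix g' hg' hL'
      have e := comm7 hD' (hcS.trans h7) (supp_sub h1 h2 h3 h4) (supp_sub k1 k2 k3 k4)
        (mem_alternatingGroup.1 (by rw [← halt h7]; exact ⟨_, rfl⟩))
        (mem_alternatingGroup.1 (by rw [← halt h7]; exact ⟨_, rfl⟩))
      rw [← map_mul, ← map_mul] at e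
      have e1 := hπ (⟨g, hg⟩ * ⟨g', hg'⟩) ⟨ω, (hmem ω).2 hω⟩
      have e2 := hπ (⟨g', hg'⟩ * ⟨g, hg⟩) ⟨ω, (hmem ω).2 hω⟩
      rw [e] at e1
      exact e1.symm.trans e2
    · rw [mul_smul, mul_smul, hsharp h7 g hg hL ω hω, hsharp h7 g' hg' hL' ω hω,
        hsharp h7 g hg hL ω hω]

end H32.FBT
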