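import Cfsg.Agent.H52.SimXSSpec

/-! SIM-XS-Card: the order of a ring over `E`. -/

set_option autoImplicit false

namespace H32.SimCard

open Subgroup Cfsg H98 Matrix H0.Sim H52.XS

theorem job : JobCard := by
  intro n F _ _ Z E P _ h R hR
  classical
  obtain ⟨T, hT, hne, hc, hs⟩ := h.sum
  have eR : ∀ e ∈ E, (e : Mt n F) ∈ R := fun e he => hR ⟨e, he, rfl⟩
  have PR : ∀ w ∈ R, P w ∈ R := fun w hw =>
    h.sub (Subalgebra.toSubmodule R)
      (fun e he m hm => R.mul_mem (R.mul_mem (eR e he) hm) (eR _ (E.inv_mem he))) w hw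
  let φ : R → (T → ↥(R ⊓ CE E)) := fun w x =>
    ⟨P ((((x : GL (Fin n) F)⁻¹ : GL (Fin n) F) : Mt n F) * w),
      PR _ (R.mul_mem (eR _ (E.inv_mem (hT _ x.2))) w.2), h.mem _⟩
  have hb : Function.Bijective φ := by
    constructor
    · intro a b e
      refine Subtype.ext ?_
      rw [hs a, hs b]
      refine Finset.sum_congr rfl fun x hx => ?_
      exact congrArg (fun m : Mt n F => (x : Mt n F) * m)
        (congrArg Subtype.val (congrFun e ⟨x, hx⟩))
    · intro c
      refine ⟨⟨∑ y : T, ((y : GL (Fin n) F) : Mt n F) * (c y : Mt n F),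
        R.sum_mem fun y _ => R.mul_mem (eR _ (hT _ y.2)) (c y).2.1⟩, funext fun x => ?_⟩
      refine Subtype.ext ?_
      show P (_ * ∑ y : T, ((y : GL (Fin n) F) : Mt n F) * (c y : Mt n F)) = c x
      rw [Finset.mul_sum, map_sum, Finset.sum_eq_single x]
      · rw [← mul_assoc, Units.inv_mul, h.r _ (c x).2.2, h.one, one_mul]
      · intro y _ hy
        rw [← mul_assoc, ← Units.val_mul, h.r _ (c y).2.2,
          h.zero _ (E.mul_mem (E.inv_mem (hT _ x.2)) (hT _ y.2))
            fun hz => hy (Subtype.ext (hne _ x.2 _ y.2 hz).symm), zero_mul]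
      · intro hx
        exact absurd (Finset.mem_univ x) hx
  rw [Nat.card_eq_of_bijective φ hb, Nat.card_fun, ← hc, Nat.card_eq_fintype_card (α := T),
    Fintype.card_coe]

end H32.SimCard
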