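import Cfsg.Agent.H42.SimXBSpec

/-! SIM-XB-SD: the divisibility in the Singer case. -/

set_option autoImplicit false

namespace H32.SimSD

open Subgroup Cfsg H98 Matrix H0.Sim H42.SX

theorem jobSD : JobSD := by
  intro ga fd jz n F K _ _ _ _ _ ι u q p N H Q A b h hA hn hc ht
  have h2 := h.par.two
  have : Nonempty (Fin n) := ⟨⟨0, by omega⟩⟩
  have inj : Function.Injective ι := ι.toRingHom.injective
  obtain ⟨γ, hγ⟩ := ga n F K ι b (by omega) (by rw [hA]; exact h.st b (h.QH h.bQ))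
  have hd : ∀ (t : GL (Fin n) F) (x : K), x ≠ 0 → (t : Mt n F) = ι x →
      ((dl b t : GL (Fin n) F) : Mt n F) = ι (x / γ x) := fun t x hx e => by
    have h1 : ((b * t * b⁻¹ : GL (Fin n) F) : Mt n F) = ι (γ x) := by
      rw [hγ, Units.val_mul, Units.val_mul, e]
    have h3 : (((b * t * b⁻¹)⁻¹ : GL (Fin n) F) : Mt n F) = ι (γ x)⁻¹ :=
      Units.inv_eq_of_mul_eq_one_right (by
        rw [h1, ← map_mul, mul_inv_cancel₀ (by simpa using hx), map_one])
    rw [dl, Units.val_mul, e, h3, ← map_mul, div_eq_mul_inv]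
  have hj : ∀ (j : ℕ) (k : K), ι ((γ ^ j) k) =
      ((b ^ j : GL (Fin n) F) : Mt n F) * ι k * (((b ^ j)⁻¹ : GL (Fin n) F) : Mt n F) := by
    intro j
    induction j with
    | zero => intro k; simp
    | succ j ih =>
      intro k
      rw [pow_succ', AlgEquiv.mul_apply, hγ, ih, pow_succ', _root_.mul_inv_rev, Units.val_mul,
        Units.val_mul]
      simp only [mul_assoc]
  have h1 : γ ≠ 1 := by
    rintro rfl
    refine h.bA ?_
    have : (b : Mt n F) ∈ Set.range ι := hc _ (Subring.mem_centralizer_iff.2 (by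
      rintro _ ⟨k, rfl⟩
      have e : ι k = _ := hγ k
      conv_lhs => rw [e]
      rw [mul_assoc, Units.inv_mul, mul_one]))
    rwa [hA] at this
  have h3 : γ ^ p = 1 := by
    obtain ⟨c, e⟩ := (jz n F u q h.par).2.2.2 _ h.bp
    refine AlgEquiv.ext fun k => inj ?_
    have e2 : ((b ^ p : GL (Fin n) F) : Mt n F) * ι k = ι k * ((b ^ p : GL (Fin n) F) : Mt n F) := by
      rw [e]
      exact (Matrix.scalar_commute c (fun _ => Commute.all _ _) _).eq
    rw [hj, e2, mul_assoc, Units.mul_inv, mul_one]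
    rfl
  obtain ⟨d, hd1, hd2⟩ := fd F K γ p N h.pp h1 h3 fun k hk x y hx hy => by
    obtain ⟨t, hS, e⟩ := ht k hk
    have k0 : k ^ N ≠ 0 := pow_ne_zero _ hk
    have x0 : x ≠ 0 := by rw [hx]; exact div_ne_zero k0 (by simpa using k0)
    have y0 : y ≠ 0 := by rw [hy]; exact div_ne_zero x0 (by simpa using x0)
    have e1 := hd t _ k0 e
    rw [← hx] at e1
    have e2 := hd _ _ x0 e1
    rw [← hy] at e2
    have e3 := hd _ _ y0 e2
    have tA : (t : Mt n F) ∈ A := by
      have : (t : Mt n F) ∈ Set.range ι := ⟨_, e.symm⟩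
      rwa [hA] at this
    rw [h.del t hS tA, Units.val_one, ← map_one ι] at e3
    exact eq_of_div_eq_one (inj e3).symm
  exact ⟨d, hn ▸ hd1, hd2⟩

end H32.SimSD
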