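import Cfsg.Agent.Base
import Cfsg.Agent.H38.Ito
import Cfsg.Agent.H28.Degree
import Cfsg.Agent.H32.Clifford

/-! Derived length of a Sylow subgroup of a `p`-solvable group and `p`-singular degrees. -/

set_option autoImplicit false

namespace H32

open Cfsg H28 H33

universe u

variable {G : Type*} [Group G] [Finite G] {p : ℕ}

/-- the number of irreducible characters of degree divisible by `p` -/
noncomputable abbrev nSing (p : ℕ) (G : Type*) [Group G] : ℕ :=
  Nat.card {χ : IrrCharacter G // p ∣ charDegree (χ : G → ℂ)}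

/-- inflation of `p`-singular characters -/
def singInfl (p : ℕ) (N : Subgroup G) [N.Normal]
    (η : {χ : IrrCharacter (G ⧸ N) // p ∣ charDegree (χ : G ⧸ N → ℂ)}) :
    {χ : IrrCharacter G // p ∣ charDegree (χ : G → ℂ)} :=
  ⟨⟨fun g => η.1.1 (g : G ⧸ N), η.1.2.inflate⟩, η.2⟩

omit [Finite G] in
theorem singInfl_injective (p : ℕ) (N : Subgroup G) [N.Normal] :
    Function.Injective (singInfl p N) := by
  intro a b h
  refine Subtype.ext (Subtype.ext (funext fun x => ?_))
  obtain ⟨g, rfl⟩ := QuotientGroup.mk_surjective x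
  exact congrFun (congrArg (fun y => y.1.1) h) g

theorem nSing_quotient_le (p : ℕ) (N : Subgroup G) [N.Normal] : nSing p (G ⧸ N) ≤ nSing p G :=
  Nat.card_le_card_of_injective _ (singInfl_injective p N)

theorem nSing_quotient_lt (N : Subgroup G) [N.Normal] {χ : G → ℂ} (hχ : IsIrrCharacter G χ)
    (hp : p ∣ charDegree χ) (hk : ¬ N ≤ charKer χ) : nSing p (G ⧸ N) < nSing p G := by
  classical
  have := Fintype.ofFinite {χ : IrrCharacter G // p ∣ charDegree (χ : G → ℂ)}
  have := Fintype.ofFinite {χ : IrrCharacter (G ⧸ N) // p ∣ charDegree (χ : G ⧸ N → ℂ)}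
  rw [nSing, nSing, Nat.card_eq_fintype_card, Nat.card_eq_fintype_card]
  refine Fintype.card_lt_of_injective_of_notMem _ (singInfl_injective p N)
    (b := ⟨⟨χ, hχ⟩, hp⟩) ?_
  rintro ⟨η, h⟩
  apply hk
  have e : χ = fun g : G => η.1.1 (g : G ⧸ N) := (congrArg (fun y => y.1.1) h).symm
  rw [e]
  exact le_charKer_inflate N _

omit [Finite G] in
theorem derivedSeries_le_of_map_eq_bot (P N : Subgroup G) [N.Normal] {m : ℕ}
    (h : derivedSeries (P.map (QuotientGroup.mk' N)) m = ⊥) :
    derivedSeries P m ≤ N.subgroupOf P := by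
  intro x hx
  have h1 := map_derivedSeries_le_derivedSeries ((QuotientGroup.mk' N).subgroupMap P) m
    (Subgroup.mem_map_of_mem _ hx)
  rw [h, Subgroup.mem_bot, Subtype.ext_iff] at h1
  exact (QuotientGroup.eq_one_iff (x : G)).1 h1

omit [Finite G] in
theorem derivedSeries_succ_eq_bot_of_comm (P N : Subgroup G) [N.Normal] {m : ℕ}
    (hN : ∀ a ∈ N, ∀ b ∈ N, a * b = b * a)
    (h : derivedSeries (P.map (QuotientGroup.mk' N)) m = ⊥) : derivedSeries P (m + 1) = ⊥ := by
  have h1 := derivedSeries_le_of_map_eq_bot P N h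
  rw [derivedSeries_succ, Subgroup.commutator_eq_bot_iff_le_centralizer]
  intro x hx y hy
  exact Subtype.ext (hN _ (h1 hy) _ (h1 hx))

omit [Finite G] in
theorem derivedSeries_eq_bot_mono {m n : ℕ} (h : derivedSeries G m = ⊥) (hmn : m ≤ n) :
    derivedSeries G n = ⊥ :=
  le_bot_iff.1 (h ▸ derivedSeries_antitone G hmn)

theorem exists_sing_of_pCore_eq_bot [hp : Fact p.Prime] (hG : IsPSolvable p G)
    (h0 : pCore p G = ⊥) (hd : p ∣ Nat.card G) :
    ∃ χ, IsIrrCharacter G χ ∧ p ∣ charDegree χ ∧ ¬ pPrimeCore p G ≤ charKer χ := by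
  classical
  cases nonempty_fintype G
  by_contra hcon
  push Not at hcon
  obtain ⟨P⟩ := (Sylow.nonempty : Nonempty (Sylow p (pPrimePCore p G)))
  have h1 := H38.sylow_sup_pPrimeCore P
  set R := (P : Subgroup (pPrimePCore p G)).map (pPrimePCore p G).subtype with hR
  set K := pPrimeCore p G with hK
  have hRp : IsPGroup p R := P.isPGroup'.map _
  have hn : (R ⊔ K).Normal := by rw [h1]; infer_instance
  have h2 : R ≤ K := by
    refine (H38.le_cen_of_le_inertia hRp (H2.not_dvd_card_pPrimeCore p G) fun θ => ?_).trans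
      (H18.centralizer_pPrimeCore_le hG h0)
    have hi : ¬ p ∣ (inertia θ.1).index := by
      intro hdvd
      obtain ⟨χ, hχ, hc⟩ := exists_irr_over (G := G) θ.2
      have hk := hcon χ hχ (hdvd.trans ((dvd_mul_right _ _).trans
        (H38.charDegree_dvd_of_over hχ θ.2 hc)))
      have e : (fun n : K => χ n) = χ 1 • fun _ => (1 : ℂ) := by
        ext n; simp [apply_of_mem_charKer (hk n.2)]
      rw [e, classInner_smul_left] at hc
      have e2 := isIrrCharacter_one.eq_of_classInner_ne_zero θ.2 (right_ne_zero_of_mul hc)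
      have : inertia θ.1 = ⊤ := by rw [← e2, inertia_eq_top_iff]; intros; rfl
      rw [this, Subgroup.index_top] at hdvd
      exact hp.out.one_lt.ne' (Nat.dvd_one.1 hdvd)
    obtain ⟨c, -, hc⟩ := exists_conj_le_of_not_dvd_relIndex (X := inertia θ.1) (H := ⊤) (Q := R)
      (by rwa [Subgroup.relIndex_top_right]) hRp le_top
    intro r hr
    have h3 : c⁻¹ * r * c⁻¹⁻¹ ∈ ((R ⊔ K : Subgroup G) : Set G) :=
      hn.conj_mem r (Subgroup.mem_sup_left hr) c⁻¹
    rw [Subgroup.mul_normal] at h3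
    obtain ⟨a, ha, b, hb, e⟩ := h3
    have e2 : r = (c * a * c⁻¹) * (c * b * c⁻¹) := by
      have : r = c * (c⁻¹ * r * c⁻¹⁻¹) * c⁻¹ := by group
      rw [this, ← e]; group
    rw [e2]
    exact Subgroup.mul_mem _ (hc a ha) (le_inertia θ.2.isClassFunction
      (Subgroup.Normal.conj_mem inferInstance b hb c))
  rw [sup_eq_right.2 h2] at h1
  have h3 : pCore p (G ⧸ pPrimeCore p G) = ⊥ := by
    rw [← Subgroup.map_comap_eq_self_of_surjective (QuotientGroup.mk'_surjective _)
      (pCore p (G ⧸ pPrimeCore p G)), Subgroup.map_eq_bot_iff, QuotientGroup.ker_mk']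
    exact h1.ge
  rcases subsingleton_or_nontrivial (G ⧸ pPrimeCore p G) with h4 | h4
  · rw [← Subgroup.card_top, ← QuotientGroup.subsingleton_iff.1 h4] at hd
    exact H2.not_dvd_card_pPrimeCore p G hd
  · exact ((H18.isPSolvable_core_ne_bot (H18.isPSolvable_quotient hG _)).elim (fun h => h h3)
      fun h => h (H2.pPrimeCore_quotient_pPrimeCore p G)).elim

theorem exists_sing_of_not_comm [hp : Fact p.Prime] {V : Subgroup G} [V.Normal]
    (hV : IsPGroup p V) (hc : ⁅V, V⁆ ≠ ⊥) :
    ∃ N : Subgroup G, N.Normal ∧ N ≠ ⊥ ∧ (∀ a ∈ N, ∀ b ∈ N, a * b = b * a) ∧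
      ∃ χ, IsIrrCharacter G χ ∧ p ∣ charDegree χ ∧ ¬ N ≤ charKer χ := by
  classical
  cases nonempty_fintype G
  have hle : ⁅V, V⁆ ≤ V := Subgroup.commutator_le_left V V
  have hW : IsPGroup p (⁅V, V⁆ : Subgroup G) := hV.to_le hle
  have : Nontrivial (⁅V, V⁆ : Subgroup G) := (Subgroup.nontrivial_iff_ne_bot _).2 hc
  have hZ := hW.center_nontrivial
  obtain ⟨z, hz⟩ := exists_ne (1 : Subgroup.center (⁅V, V⁆ : Subgroup G))
  refine ⟨(Subgroup.center (⁅V, V⁆ : Subgroup G)).map (Subgroup.subtype _),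
    H2.normal_map_subtype_of_characteristic _ _, ?_, ?_, ?_⟩
  · intro h
    have : ((z : (⁅V, V⁆ : Subgroup G)) : G) ∈ (⊥ : Subgroup G) :=
      h ▸ Subgroup.mem_map_of_mem _ z.2
    exact hz (Subtype.ext (Subtype.ext this))
  · rintro _ ⟨a, ha, rfl⟩ _ ⟨b, hb, rfl⟩
    exact congrArg Subtype.val (Subgroup.mem_center_iff.1 hb a)
  · let v : V := ⟨(z : (⁅V, V⁆ : Subgroup G)), hle z.1.2⟩
    have hv : v ≠ 1 := fun h => hz (Subtype.ext (Subtype.ext (congrArg (fun y : V => (y : G)) h)))
    have hvc : v ∈ commutator V := by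
      have e : (commutator V).map V.subtype = ⁅V, V⁆ := by
        rw [commutator_def, Subgroup.map_commutator, ← MonoidHom.range_eq_map,
          Subgroup.range_subtype]
      have h1 : (v : G) ∈ (commutator V).map V.subtype := e ▸ z.1.2
      obtain ⟨w, hw, e2⟩ := h1
      rwa [← Subtype.ext e2]
    obtain ⟨θ, hθ, hk⟩ := exists_irr_not_mem_charKer hv
    obtain ⟨k, hk2⟩ := hθ.exists_pow_charDegree hV
    have hk0 : k ≠ 0 := by
      rintro rfl
      exact hk (hθ.charDegree_eq_one_iff.1 (by simpa using hk2) hvc)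
    obtain ⟨χ, hχ, hc⟩ := exists_irr_over (G := G) hθ
    refine ⟨χ, hχ, ((hk2 ▸ dvd_pow_self p hk0).trans (dvd_mul_left _ _)).trans
      (H38.charDegree_dvd_of_over hχ hθ hc), fun hle2 => hk ?_⟩
    have h1 : v ∈ charKer fun n : V => χ n := by
      rw [(hχ.isCharacter.restrict V).mem_charKer]
      exact apply_of_mem_charKer (hle2 (Subgroup.mem_map_of_mem _ z.2))
    exact (hχ.isCharacter.restrict V).mem_charKer_iff_constituents.1 h1 θ hθ hc

theorem derivedSeries_sylow_nSing (p : ℕ) [hp : Fact p.Prime] (n : ℕ) :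
    ∀ (G : Type u) [Group G] [Finite G], Nat.card G = n → IsPSolvable p G → ∀ P : Sylow p G,
      derivedSeries (P : Subgroup G) (nSing p G + 1) = ⊥ ∧
      (pCore p G = ⊥ → derivedSeries (P : Subgroup G) (nSing p G) = ⊥) := by
  induction n using Nat.strong_induction_on with
  | _ n ih =>
  intro G _ _ hn hG P
  have quot : ∀ (N : Subgroup G) [N.Normal], N ≠ ⊥ →
      derivedSeries ((P : Subgroup G).map (QuotientGroup.mk' N)) (nSing p (G ⧸ N) + 1) = ⊥ ∧
      (pCore p (G ⧸ N) = ⊥ →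
        derivedSeries ((P : Subgroup G).map (QuotientGroup.mk' N)) (nSing p (G ⧸ N)) = ⊥) := by
    intro N _ hN
    refine ih _ ?_ (G ⧸ N) rfl (H18.isPSolvable_quotient hG N)
      (P.mapSurjective (QuotientGroup.mk'_surjective N))
    rw [← hn, ← Subgroup.index_eq_card, ← N.index_mul_card]
    have h1 : 1 < Nat.card N := (Subgroup.one_lt_card_iff_ne_bot N).2 hN
    have h2 : 0 < N.index := Nat.pos_of_ne_zero Subgroup.index_ne_zero_of_finite
    nlinarith
  have hB : pCore p G = ⊥ → derivedSeries (P : Subgroup G) (nSing p G) = ⊥ := by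
    intro h0
    by_cases hd : p ∣ Nat.card G
    · obtain ⟨χ, hχ, h1, h2⟩ := exists_sing_of_pCore_eq_bot hG h0 hd
      have hK : pPrimeCore p G ≠ ⊥ := fun h => h2 (h ▸ bot_le)
      have h3 := derivedSeries_le_of_map_eq_bot _ _ (quot _ hK).1
      have h4 : (pPrimeCore p G).subgroupOf (P : Subgroup G) = ⊥ := by
        rw [Subgroup.subgroupOf_eq_bot]
        exact (H2.disjoint_of_isPGroup_of_coprime P.isPGroup'
          ((Nat.Prime.coprime_iff_not_dvd hp.out).2 (H2.not_dvd_card_pPrimeCore p G)).symm).symm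
      exact derivedSeries_eq_bot_mono (le_bot_iff.1 (h4 ▸ h3)) (nSing_quotient_lt _ hχ h1 h2)
    · have : (P : Subgroup G) = ⊥ := by
        exact H2.disjoint_of_isPGroup_of_coprime P.isPGroup' (B := ⊤)
          (by rw [Subgroup.card_top]; exact ((Nat.Prime.coprime_iff_not_dvd hp.out).2 hd).symm)
          |>.eq_bot_of_le le_top
      have hs : Subsingleton (P : Subgroup G) := by rw [this]; infer_instance
      exact Subsingleton.elim _ _
  refine ⟨?_, hB⟩
  by_cases h0 : pCore p G = ⊥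
  · exact derivedSeries_eq_bot_mono (hB h0) (Nat.le_succ _)
  by_cases hc : ⁅pCore p G, pCore p G⁆ = ⊥
  · refine derivedSeries_eq_bot_mono (derivedSeries_succ_eq_bot_of_comm _ (pCore p G) ?_
      ((quot _ h0).2 (H2.pCore_quotient_pCore p G))) (Nat.succ_le_succ (nSing_quotient_le p _))
    intro a ha b hb
    exact Subgroup.commutator_eq_bot_iff_le_centralizer.1 hc hb a ha
  · obtain ⟨N, hN, hN0, hNc, χ, hχ, h1, h2⟩ := exists_sing_of_not_comm (H2.pCore_isPGroup p G) hc
    exact derivedSeries_eq_bot_mono (derivedSeries_succ_eq_bot_of_comm _ N hNc (quot _ hN0).1)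
      (Nat.succ_le_succ (nSing_quotient_lt _ hχ h1 h2))

end H32
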